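import Cfsg.Agent.H162.WeilIrr
import Cfsg.Agent.Prune
set_option linter.all false

section
prune_inst 0x7f00000000000000000000000000000000000000000000000000000000000000000000000000000000000000000000000000000000000000000000000000000000000000000000000000000000000000003fffffffffffffffffffffffffffbeffbdfbfeffff

section
prune_inst 0xfffdffffef6fffdfff7fbfaff6fffdf7ab2ffff6fffdcb7fe069bf2bdf7f82cfc7ffd78ffb33fc1fffea94d5fefb53fffffffffa6ffe7ffffdfff4dffbffcfedf6bd08519e9cb40fb82fff63f07f8e6f000000000000000000000000000000004200000000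

-- part: H162/RkTwo
section
prune_inst 0x900000008000500800020040900000000000800084000000001820200008000040000000002000000080000000000000008000000000000000100001008000010000000480000000004010000000000000000000000000000000000004010000
set_option linter.all false
open scoped Cfsg.Agent.FastGrp

/-!
# Representations of rank at most two: the relation `R3` for rank two weights (helper162)
-/

set_option autoImplicit false
open Matrix

namespace Cfsg.Agent.H162.Weil

variable {F : Type*} [Field F] {n : ℕ} [Fintype F] {V : Type*} [AddCommGroup V] [Module ℂ V]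
  {ρ : Representation ℂ (Sp n F) V} {ψ : AddChar F ℂ}

/-- Every weight has rank at most two. -/
def RkTwo (ρ : Representation ℂ (Sp n F) V) (ψ : AddChar F ℂ) : Prop :=
  ∀ T ∈ Sym n F, ∀ v ∈ Wt ρ ψ T, v ≠ 0 → ∀ r c : Fin 3 → Fin n, (T.submatrix r c).det = 0

/-- The rank two weight. -/
def TU (a b : F) (x y : Fin n → F) : Matrix (Fin n) (Fin n) F := TT a x + TT b y

theorem TU_mem (a b : F) (x y : Fin n → F) : TU a b x y ∈ Sym n F :=
  add_mem (TT_mem a x) (TT_mem b y)

theorem TU_apply (a b : F) (x y : Fin n → F) (k l : Fin n) :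
    TU a b x y k l = a * (x k * x l) + b * (y k * y l) := by
  rw [TU, Matrix.add_apply, TT_apply, TT_apply]

theorem pr_TU (a b : F) (x y : Fin n → F) (S : Matrix (Fin n) (Fin n) F) :
    pr (TU a b x y) S = a * (x ⬝ᵥ (S *ᵥ x)) + b * (y ⬝ᵥ (S *ᵥ y)) := by
  rw [TU, pr_add_left, pr_TT, pr_TT]

theorem actT_TU (h : GL (Fin n) F) (a b : F) (x y : Fin n → F) :
    actT h (TU a b x y) = TU a b (x ᵥ* ((h⁻¹ : GL (Fin n) F) : Matrix (Fin n) (Fin n) F))
      (y ᵥ* ((h⁻¹ : GL (Fin n) F) : Matrix (Fin n) (Fin n) F)) := by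
  have h1 : actT h (TU a b x y) = actT h (TT a x) + actT h (TT b y) := by
    simp only [actT, TU, Matrix.mul_add, Matrix.add_mul]
  rw [h1, actT_TT, actT_TT, TU]

theorem mm_mem_TU (h : GL (Fin n) F) {a b : F} {x y : Fin n → F} {v : V}
    (hv : v ∈ Wt ρ ψ (TU a b x y)) :
    ρ (mm h) v ∈ Wt ρ ψ (TU a b (x ᵥ* ((h⁻¹ : GL (Fin n) F) : Matrix (Fin n) (Fin n) F))
      (y ᵥ* ((h⁻¹ : GL (Fin n) F) : Matrix (Fin n) (Fin n) F))) := by
  rw [← actT_TU]; exact mm_mem_Wt h hv

theorem uu_TU_single {a b : F} {i k : Fin n} {v : V}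
    (hv : v ∈ Wt ρ ψ (TU a b (Pi.single i 1) (Pi.single k 1)))
    (S : Sym n F) : ρ (uu S) v = ψ (a * S.1 i i + b * S.1 k k) • v := by
  rw [hv S, pr_TU]
  simp only [_root_.Matrix.mulVec_single, _root_.MulOpposite.op_one, _root_.one_smul, _root_.single_dotProduct, _root_.Matrix.col_apply, _root_.one_mul]

section F2

variable (hψ : ψ.IsPrimitive) (h2 : (2 : F) ≠ 0) (hR : RkTwo ρ ψ) {i k j : Fin n} (hik : i ≠ k)
  (hij : i ≠ j) (hkj : k ≠ j) {a b : F} (ha : a ≠ 0) (hb : b ≠ 0)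

include hik ha hb in
/-- the rank two formula -/
theorem RkTwo.formula (hR : RkTwo ρ ψ) {T : Matrix (Fin n) (Fin n) F} (hT : T ∈ Sym n F) {v : V}
    (hv : v ∈ Wt ρ ψ T) (hne : v ≠ 0) (hii : T i i = a) (hkk : T k k = b) (h0 : T i k = 0)
    (p q : Fin n) : T p q = a⁻¹ * (T i p * T i q) + b⁻¹ * (T k p * T k q) := by
  have h := hR T hT v hv hne ![i, k, p] ![i, k, q]
  rw [Matrix.det_fin_three] at h
  simp only [submatrix_apply, Matrix.cons_val_zero, Matrix.cons_val_one, Matrix.cons_val_two,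
    Matrix.head_cons, Matrix.tail_cons, Matrix.cons_val] at h
  have hs : ∀ x y, T x y = T y x := fun x y => Sym.apply ⟨T, hT⟩ x y
  rw [hii, hkk, h0, hs k i, h0, hs p i, hs p k] at h
  field_simp
  linear_combination h

include hij hkj in
theorem ev2_vecMul (y y' : F) :
    ev k j y' ᵥ* (((tv i j hij (-y))⁻¹ : GL (Fin n) F) : Matrix (Fin n) (Fin n) F) =
      ev k j y' + Pi.single j (ev k j y' i * y) := by
  rw [tv_inv_coe, vecMul_add, vecMul_one, vecMul_sgl, neg_neg]

theorem ev_ne {i k j : Fin n} (hik : i ≠ k) (hij : i ≠ j) (y : F) : ev k j y i = 0 := by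
  simp [ev, hik, hij]

theorem ev_self {i j : Fin n} (hij : i ≠ j) (y : F) : ev i j y i = 1 := by
  simp [ev, hij]

theorem ev_snd {i j : Fin n} (hij : i ≠ j) (y : F) : ev i j y j = y := by
  simp [ev, hij.symm]

/-- The operators `N(y₁, y₂)`. -/
noncomputable def Nz (ρ : Representation ℂ (Sp n F) V) (i k j : Fin n) (hij : i ≠ j)
    (hkj : k ≠ j) (y : F × F) : V →ₗ[ℂ] V := Ny ρ i j hij y.1 ∘ₗ Ny ρ k j hkj y.2

theorem Nz_apply (y : F × F) (v : V) :
    Nz ρ i k j hij hkj y v = Ny ρ i j hij y.1 (Ny ρ k j hkj y.2 v) := rfl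

/-- the group element of `Nz` -/
def nz (i k j : Fin n) (hij : i ≠ j) (hkj : k ≠ j) (y : F × F) : GL (Fin n) F :=
  tv i j hij (-y.1) * tv k j hkj (-y.2)

theorem Nz_eq (y : F × F) : Nz ρ i k j hij hkj y = ρ (mm (nz i k j hij hkj y)) := by
  apply LinearMap.ext
  intro v
  rw [Nz_apply, Ny, Ny, ← rho_mul, ← map_mul, nz]

include hik in
theorem ev_nz1 (y y' : F × F) :
    ev i j y'.1 ᵥ* (((nz i k j hij hkj y)⁻¹ : GL (Fin n) F) : Matrix (Fin n) (Fin n) F) =
      ev i j (y.1 + y'.1) := by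
  rw [nz, _root_.mul_inv_rev, Units.val_mul, ← vecMul_vecMul, ev2_vecMul hkj hij, ev_ne hik.symm hkj,
    zero_mul, Pi.single_zero, add_zero, ev_vecMul hij]

include hik in
theorem ev_nz2 (y y' : F × F) :
    ev k j y'.2 ᵥ* (((nz i k j hij hkj y)⁻¹ : GL (Fin n) F) : Matrix (Fin n) (Fin n) F) =
      ev k j (y.2 + y'.2) := by
  rw [nz, _root_.mul_inv_rev, Units.val_mul, ← vecMul_vecMul, ev_vecMul hkj, ev2_vecMul hij hkj,
    ev_ne hik hij, zero_mul, Pi.single_zero, add_zero]

/-- the weights -/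
abbrev TV (a b : F) (i k j : Fin n) (y : F × F) : Matrix (Fin n) (Fin n) F :=
  TU a b (ev i j y.1) (ev k j y.2)

theorem TV_apply (a b : F) (i k j : Fin n) (y : F × F) (p q : Fin n) :
    TV a b i k j y p q = a * (ev i j y.1 p * ev i j y.1 q) + b * (ev k j y.2 p * ev k j y.2 q) :=
  TU_apply _ _ _ _ _ _

include hik in
theorem Nz_mem {y y' : F × F} {v : V} (hv : v ∈ Wt ρ ψ (TV a b i k j y')) :
    Nz ρ i k j hij hkj y v ∈ Wt ρ ψ (TV a b i k j (y + y')) := by
  have := mm_mem_TU (nz i k j hij hkj y) hv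
  rwa [ev_nz1 hik hij hkj, ev_nz2 hik hij hkj, ← Nz_eq] at this

include hik in
theorem Nz_Pj (y y' : F × F) (v : V) :
    Nz ρ i k j hij hkj y (Pj ρ ψ (TV a b i k j y') v) =
      Pj ρ ψ (TV a b i k j (y + y')) (Nz ρ i k j hij hkj y v) := by
  rw [Nz_eq, mm_Pj, actT_TU, ev_nz1 hik hij hkj, ev_nz2 hik hij hkj]
  rfl

theorem Nz_zero (v : V) : Nz ρ i k j hij hkj 0 v = v := by
  have : ∀ (i j : Fin n) (hij : i ≠ j), tv i j hij (0 : F) = 1 := by
    intro i j hij
    apply Units.ext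
    rw [tv_coe]; simp
  rw [Nz_eq, nz, Prod.fst_zero, Prod.snd_zero, neg_zero, this, this, mul_one, map_one, map_one,
    Module.End.one_apply]

include hik hij hkj ha hb in
theorem TV_inj : Function.Injective (fun y : F × F => TV a b i k j y) := by
  intro y y' h
  have h1 := congrFun (congrFun h i) j
  have h3 := congrFun (congrFun h k) j
  simp only [TU_apply, ev_self hij, ev_self hkj, ev_ne hik hij, ev_ne hik.symm hkj,
    ev_snd hij, ev_snd hkj, zero_mul, mul_zero, add_zero, zero_add, one_mul] at h1 h3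
  exact Prod.ext (mul_left_cancel₀ ha h1) (mul_left_cancel₀ hb h3)

theorem TV_zero : TV a b i k j 0 = TU a b (Pi.single i 1) (Pi.single k 1) := by
  rw [TV, Prod.fst_zero, Prod.snd_zero, ev_zero, ev_zero]

/-- The operator `K`. -/
noncomputable def Lop (ρ : Representation ℂ (Sp n F) V) (ψ : AddChar F ℂ) (i k j : Fin n)
    (a b : F) (v : V) : V := Pj ρ ψ (TV a b i k j 0) (ρ (ww j) v)

include hψ h2 hR hik hij hkj ha hb in
theorem ww_decomp2 {v : V} (hv : v ∈ Wt ρ ψ (TU a b (Pi.single i 1) (Pi.single k 1))) :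
    ∑ y : F × F, Pj ρ ψ (TV a b i k j y) (ρ (ww j) v) = ρ (ww j) v := by
  classical
  conv_rhs => rw [← sum_Pj (ρ := ρ) hψ h2 (ρ (ww j) v)]
  refine Fintype.sum_of_injective (fun y => (⟨TV a b i k j y, TU_mem _ _ _ _⟩ : Sym n F))
    (fun y y' h => TV_inj hik hij hkj ha hb (congrArg Subtype.val h)) _ _ ?_ (fun y => rfl)
  intro T hT
  by_contra h0
  apply hT
  have hTm := Pj_mem (ρ := ρ) (ψ := ψ) T.1 (ρ (ww j) v)
  -- action of `uu S` commuting with `ww j`
  have h1 : ∀ S : Sym n F, (∀ k, S.1 j k = 0) →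
      ψ (pr T.1 S.1) = ψ (a * S.1 i i + b * S.1 k k) := by
    intro S hS
    have h3 := hTm S
    rw [rho_uu_Pj, ← rho_mul, ← ww_comm_uu j S hS, rho_mul, uu_TU_single hv, map_smul,
      map_smul] at h3
    have h4 : (ψ (a * S.1 i i + b * S.1 k k) - ψ (pr T.1 S.1)) •
        Pj ρ ψ T.1 (ρ (ww j) v) = 0 := by
      rw [sub_smul, h3, sub_self]
    rcases smul_eq_zero.mp h4 with h5 | h5
    · exact (sub_eq_zero.mp h5).symm
    · exact absurd h5 h0
  have hpsi : ∀ x y : F, ψ x = ψ y → ψ (x - y) = 1 := by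
    intro x y h
    rw [sub_eq_add_neg, AddChar.map_add_eq_mul, h, ← AddChar.map_add_eq_mul, add_neg_cancel,
      AddChar.map_zero_eq_one]
  have hdd : ∀ l, l ≠ j → T.1 l l = a * (if l = i then 1 else 0) + b * (if l = k then 1 else 0) := by
    intro l hl
    by_contra hne
    obtain ⟨s, hs⟩ := exists_ne_one hψ (sub_ne_zero.mpr hne)
    apply hs
    have := hpsi _ _ (h1 (sD l s) (fun m => sD_zero_of_ne _ _ _ _ (fun h => hl h.1.symm)))
    rw [pr_sD] at this
    rw [← this]
    congr 1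
    have e : ∀ m : Fin n, (sD l s).1 m m = if l = m then s else 0 := by
      intro m
      simp only [sD, single_apply]
      by_cases h : l = m <;> simp [h]
    rw [e, e]
    split_ifs <;> ring
  have hod : ∀ l m, l ≠ m → l ≠ j → m ≠ j → T.1 l m = 0 := by
    intro l m hlm hl hm
    by_contra hne
    obtain ⟨s, hs⟩ := exists_ne_one hψ (mul_ne_zero h2 hne)
    apply hs
    have := h1 (sE l m s) (fun q => sE_zero_of_ne _ _ _ _ _ (fun h => hl h.1.symm)
      (fun h => hm h.1.symm))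
    have e : ∀ q : Fin n, (sE l m s).1 q q = 0 := by
      intro q
      apply sE_zero_of_ne
      · rintro ⟨rfl, h⟩; exact hlm h
      · rintro ⟨rfl, h⟩; exact hlm h.symm
    rw [pr_sE, Sym.apply T m l, ← two_mul, e, e, mul_zero, mul_zero, add_zero,
      AddChar.map_zero_eq_one] at this
    exact this
  have hii : T.1 i i = a := by rw [hdd i hij]; simp [hik]
  have hkk : T.1 k k = b := by rw [hdd k hkj]; simp [hik.symm]
  refine ⟨(a⁻¹ * T.1 i j, b⁻¹ * T.1 k j), ?_⟩
  apply Subtype.ext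
  ext p q
  have hkl := RkTwo.formula hik ha hb hR T.2 hTm h0 hii hkk (hod i k hik hij hkj) p q
  show TV a b i k j (a⁻¹ * T.1 i j, b⁻¹ * T.1 k j) p q = T.1 p q
  have hev1 : ∀ p, a * (ev i j (a⁻¹ * T.1 i j)) p = T.1 i p := by
    intro p
    by_cases hpi : p = i
    · subst hpi
      rw [ev_self hij, hii, mul_one]
    · by_cases hpj : p = j
      · subst hpj
        rw [ev_snd hij, mul_inv_cancel_left₀ ha]
      · rw [hod i p (Ne.symm hpi) hij hpj, ev_ne hpi hpj, mul_zero]
  have hev2 : ∀ p, b * (ev k j (b⁻¹ * T.1 k j)) p = T.1 k p := by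
    intro p
    by_cases hpi : p = k
    · subst hpi
      rw [ev_self hkj, hkk, mul_one]
    · by_cases hpj : p = j
      · subst hpj
        rw [ev_snd hkj, mul_inv_cancel_left₀ hb]
      · rw [hod k p (Ne.symm hpi) hkj hpj, ev_ne hpi hpj, mul_zero]
  rw [hkl, TV_apply]
  rw [← hev1 p, ← hev1 q, ← hev2 p, ← hev2 q]
  field_simp

theorem Nz_ww {v : V} (hv : v ∈ Wt ρ ψ (TU a b (Pi.single i 1) (Pi.single k 1))) (y : F × F) :
    Nz ρ i k j hij hkj y (ρ (ww j) v) = ρ (ww j) v := by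
  have h : ∀ (l : Fin n) (hl : l ≠ j) (z : F), Ny ρ l j hl z (ρ (ww j) v) = ρ (ww j) v := by
    intro l hl z
    have e : ∀ q : Fin n, (sE l j (-z)).1 q q = 0 := by
      intro q
      apply sE_zero_of_ne
      · rintro ⟨rfl, h⟩; exact hl h
      · rintro ⟨rfl, h⟩; exact hl h.symm
    rw [Ny, ← rho_mul, ← ww_mul_uu l j hl, rho_mul, uu_TU_single hv, e, e, mul_zero, mul_zero,
      add_zero, AddChar.map_zero_eq_one, one_smul]
  rw [Nz_apply, h, h]

include hψ h2 hR hik ha hb in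
theorem ww_eq_sum2 {v : V} (hv : v ∈ Wt ρ ψ (TU a b (Pi.single i 1) (Pi.single k 1))) :
    ρ (ww j) v = ∑ y : F × F, Nz ρ i k j hij hkj y (Lop ρ ψ i k j a b v) := by
  rw [← ww_decomp2 hψ h2 hR hik hij hkj ha hb hv]
  refine Finset.sum_congr rfl fun y _ => ?_
  rw [Lop, Nz_Pj hik, Nz_ww hij hkj hv, add_zero]

theorem Lop_mem (v : V) :
    Lop ρ ψ i k j a b v ∈ Wt ρ ψ (TU a b (Pi.single i 1) (Pi.single k 1)) := by
  rw [← TV_zero (j := j)]
  exact Pj_mem _ _

include hik in
theorem Nz_mem0 {v : V} (hv : v ∈ Wt ρ ψ (TU a b (Pi.single i 1) (Pi.single k 1))) (y : F × F) :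
    Nz ρ i k j hij hkj y v ∈ Wt ρ ψ (TV a b i k j y) := by
  have h := Nz_mem hik hij hkj (y := y) (y' := 0) (v := v) (by
    rw [TV_zero]; exact hv)
  rwa [add_zero] at h

include hψ h2 hR hik ha hb in
theorem ww_Nz {v : V} (hv : v ∈ Wt ρ ψ (TU a b (Pi.single i 1) (Pi.single k 1))) (x : F × F) :
    ρ (ww j) (Nz ρ i k j hij hkj x v) =
      ∑ y : F × F, ψ (2 * (a * x.1 * y.1 + b * x.2 * y.2)) •
        Nz ρ i k j hij hkj y (Lop ρ ψ i k j a b v) := by
  rw [Nz_apply, Ny, Ny, ← rho_mul, ww_mul_mm, rho_mul, ← rho_mul (ww j), ww_mul_mm, rho_mul,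
    ww_eq_sum2 hψ h2 hR hik hij hkj ha hb hv, map_sum, map_sum, neg_neg, neg_neg]
  refine Finset.sum_congr rfl fun y _ => ?_
  have h := Nz_mem0 hik hij hkj (Lop_mem (ρ := ρ) (ψ := ψ) (i := i) (k := k) (j := j) (a := a)
    (b := b) v) y
  rw [h (sE k j x.2), map_smul, h (sE i j x.1), smul_smul, ← AddChar.map_add_eq_mul]
  congr 2
  rw [pr_sE, pr_sE, TV_apply, TV_apply, TV_apply, TV_apply]
  simp only [ev_self hij, ev_self hkj, ev_ne hik hij, ev_ne hik.symm hkj,
    ev_snd hij, ev_snd hkj, zero_mul, mul_zero, add_zero, zero_add, one_mul, mul_one]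
  ring

/-- the product of the two Gauss sums -/
noncomputable def g2 (ψ : AddChar F ℂ) (a b : F) : ℂ := gs ψ a * gs ψ b

theorem g2_eq (a b : F) : g2 ψ a b = ∑ y : F × F, ψ (a * y.1 ^ 2 + b * y.2 ^ 2) := by
  rw [g2, gs, gs, Finset.sum_mul_sum, ← Finset.univ_product_univ, Finset.sum_product]
  refine Finset.sum_congr rfl fun x _ => Finset.sum_congr rfl fun y _ => ?_
  rw [AddChar.map_add_eq_mul]

include hψ h2 hR hik hij hkj ha hb in
theorem key_ht2 {v : V} (hv : v ∈ Wt ρ ψ (TU a b (Pi.single i 1) (Pi.single k 1))) (t : Fˣ) :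
    g2 ψ (-((t⁻¹ : Fˣ) : F) * a) (-((t⁻¹ : Fˣ) : F) * b) •
      Lop ρ ψ i k j a b (Lop ρ ψ i k j a b v) =
      ρ (mm (ht j t)) (Lop ρ ψ i k j a b v) := by
  classical
  have hK := Lop_mem (ρ := ρ) (ψ := ψ) (i := i) (k := k) (j := j) (a := a) (b := b) v
  have hN := Nz_mem0 hik hij hkj hK
  have hE : ∀ y y' : F × F, ∀ u : V, u ∈ Wt ρ ψ (TV a b i k j y') →
      Pj ρ ψ (TV a b i k j y) u = if y' = y then u else 0 := by
    intro y y' u hu
    split_ifs with h
    · subst h; exact Pj_of_mem hu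
    · exact Pj_of_mem_ne hψ h2 (TU_mem _ _ _ _) (TU_mem _ _ _ _)
        (fun h' => h (TV_inj hik hij hkj ha hb h').symm) hu
  have hrel := congrArg (fun g => Pj ρ ψ (TV a b i k j 0) (ρ g v)) (ww_uu_ww j t)
  simp only [rho_mul] at hrel
  -- left side
  have hL : Pj ρ ψ (TV a b i k j 0)
      (ρ (ww j) (ρ (uu (sD j (-((t⁻¹ : Fˣ) : F)))) (ρ (ww j) v))) =
      g2 ψ (-((t⁻¹ : Fˣ) : F) * a) (-((t⁻¹ : Fˣ) : F) * b) •
        Lop ρ ψ i k j a b (Lop ρ ψ i k j a b v) := by
    rw [ww_eq_sum2 hψ h2 hR hik hij hkj ha hb hv, map_sum, map_sum, map_sum, g2_eq,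
      Finset.sum_smul]
    refine Finset.sum_congr rfl fun y _ => ?_
    rw [hN y, map_smul, map_smul, ww_Nz hψ h2 hR hik hij hkj ha hb hK, map_sum]
    rw [Finset.sum_eq_single 0]
    · rw [Prod.fst_zero, Prod.snd_zero, mul_zero, mul_zero, add_zero, mul_zero,
        AddChar.map_zero_eq_one, one_smul, Nz_zero]
      rw [hE 0 0 _ (by rw [TV_zero]; exact Lop_mem _), if_pos rfl]
      congr 2
      rw [pr_sD, TV_apply, ev_snd hij, ev_snd hkj]
      ring
    · intro y' _ hy'
      have h := Nz_mem0 hik hij hkj (Lop_mem (ρ := ρ) (ψ := ψ) (i := i) (k := k) (j := j)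
        (a := a) (b := b) (Lop ρ ψ i k j a b v)) y'
      rw [map_smul, hE 0 y' _ h, if_neg hy', smul_zero]
    · simp only [_root_.Finset.mem_univ, _root_.not_true_eq_false, _root_.Prod.fst_zero, _root_.MulZeroClass.mul_zero, _root_.Prod.snd_zero, _root_.add_zero, _root_.AddChar.map_zero_eq_one, _root_.one_smul, _root_.IsEmpty.forall_iff]
  have hR' : Pj ρ ψ (TV a b i k j 0)
      (ρ (uu (sD j (t : F))) (ρ (mm (ht j t)) (ρ (ww j) (ρ (uu (sD j (t : F))) v)))) =
      ρ (mm (ht j t)) (Lop ρ ψ i k j a b v) := by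
    rw [uu_TU_single hv, sD_zero_of_ne _ _ _ _ (fun h => hij h.1),
      sD_zero_of_ne _ _ _ _ (fun h => hkj h.1), mul_zero, mul_zero, add_zero,
      AddChar.map_zero_eq_one, one_smul, ww_eq_sum2 hψ h2 hR hik hij hkj ha hb hv, map_sum,
      map_sum, map_sum]
    have hmv : ∀ (l : Fin n) (hl : l ≠ j) (y : F), ev l j y ᵥ*
        (((ht j t)⁻¹ : GL (Fin n) F) : Matrix (Fin n) (Fin n) F) =
        ev l j (y * ((t⁻¹ : Fˣ) : F)) := by
      intro l hl y
      rw [ht_inv, ht_coe, vecMul_add, vecMul_one, vecMul_sgl]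
      simp only [ev]
      rw [add_assoc, ← Pi.single_add]
      congr 2
      simp only [Pi.add_apply, Pi.single_eq_same, Pi.single_eq_of_ne hl.symm, zero_add]
      ring
    have hm : ∀ y : F × F, ρ (mm (ht j t)) (Nz ρ i k j hij hkj y (Lop ρ ψ i k j a b v)) ∈
        Wt ρ ψ (TV a b i k j (y.1 * ((t⁻¹ : Fˣ) : F), y.2 * ((t⁻¹ : Fˣ) : F))) := by
      intro y
      have := mm_mem_TU (ht j t) (hN y)
      rwa [hmv i hij, hmv k hkj] at this
    rw [Finset.sum_eq_single 0]
    · have h3 := hm 0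
      rw [Nz_zero, Prod.fst_zero, Prod.snd_zero, zero_mul] at h3
      rw [Nz_zero, h3, map_smul, hE 0 0 _ h3, if_pos rfl, pr_sD, TV_apply, ev_snd hij,
        ev_snd hkj, mul_zero, mul_zero, mul_zero, add_zero, mul_zero, AddChar.map_zero_eq_one,
        one_smul]
    · intro y _ hy
      rw [hm y, map_smul, hE 0 _ _ (hm y), if_neg, smul_zero]
      intro h
      apply hy
      have h1 := congrArg Prod.fst h
      have h3 := congrArg Prod.snd h
      have ht0 := Units.ne_zero (t⁻¹ : Fˣ)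
      exact Prod.ext ((mul_eq_zero.mp h1).resolve_right ht0)
        ((mul_eq_zero.mp h3).resolve_right ht0)
    · simp only [_root_.Finset.mem_univ, _root_.not_true_eq_false, _root_.IsEmpty.forall_iff]
  rw [← hL, ← hR', hrel]

include hψ h2 hR hik hij hkj ha hb in
theorem g2_Lop {v : V} (hv : v ∈ Wt ρ ψ (TU a b (Pi.single i 1) (Pi.single k 1))) :
    g2 ψ (-a) (-b) • Lop ρ ψ i k j a b v = v := by
  have h1 := key_ht2 hψ h2 hR hik hij hkj ha hb hv 1
  have h3 : ht j (1 : Fˣ) = 1 := by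
    apply Units.ext
    rw [ht_coe]; simp
  rw [h3, map_one, map_one, Module.End.one_apply, inv_one, Units.val_one, neg_one_mul,
    neg_one_mul] at h1
  have hlin : ∀ u w : V, Lop ρ ψ i k j a b (u - w) = Lop ρ ψ i k j a b u - Lop ρ ψ i k j a b w := by
    intro u w; simp only [Lop, _root_.map_sub]
  have hsm : ∀ (c : ℂ) (u : V), Lop ρ ψ i k j a b (c • u) = c • Lop ρ ψ i k j a b u := by
    intro c u; simp [Lop]
  set u := g2 ψ (-a) (-b) • Lop ρ ψ i k j a b v - v with hu
  have hu0 : Lop ρ ψ i k j a b u = 0 := by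
    rw [hu, hlin, hsm, h1, sub_self]
  have hum : u ∈ Wt ρ ψ (TU a b (Pi.single i 1) (Pi.single k 1)) :=
    Submodule.sub_mem _ (Submodule.smul_mem _ _ (Lop_mem v)) hv
  have := ww_eq_sum2 hψ h2 hR hik hij hkj ha hb hum
  simp only [hu0, map_zero, Finset.sum_const_zero] at this
  have h5 : u = 0 := by
    apply rho_inj (ρ := ρ) (ww j)
    rw [this, map_zero]
  exact sub_eq_zero.mp h5

include hψ h2 hR hik ha hb in
/-- (F2) for rank two weights -/
theorem g2_ww {v : V} (hv : v ∈ Wt ρ ψ (TU a b (Pi.single i 1) (Pi.single k 1))) (x : F × F) :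
    g2 ψ (-a) (-b) • ρ (ww j) (Nz ρ i k j hij hkj x v) =
      ∑ y : F × F, ψ (2 * (a * x.1 * y.1 + b * x.2 * y.2)) • Nz ρ i k j hij hkj y v := by
  rw [ww_Nz hψ h2 hR hik hij hkj ha hb hv, Finset.smul_sum]
  refine Finset.sum_congr rfl fun y _ => ?_
  rw [smul_comm, ← map_smul, g2_Lop hψ h2 hR hik hij hkj ha hb hv]

include hψ h2 hR hik hij hkj ha hb in
/-- (F3) for rank two weights -/
theorem g2_ht {v : V} (hv : v ∈ Wt ρ ψ (TU a b (Pi.single i 1) (Pi.single k 1))) (t : Fˣ) :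
    g2 ψ (-a) (-b) • ρ (mm (ht j t)) v =
      g2 ψ (-((t⁻¹ : Fˣ) : F) * a) (-((t⁻¹ : Fˣ) : F) * b) • v := by
  have h1 := key_ht2 hψ h2 hR hik hij hkj ha hb hv t
  have hsm : ∀ (c : ℂ) (u : V), Lop ρ ψ i k j a b (c • u) = c • Lop ρ ψ i k j a b u := by
    intro c u; simp [Lop]
  have h3 : (g2 ψ (-a) (-b) * g2 ψ (-a) (-b)) •
      g2 ψ (-((t⁻¹ : Fˣ) : F) * a) (-((t⁻¹ : Fˣ) : F) * b) •
      Lop ρ ψ i k j a b (Lop ρ ψ i k j a b v) =
      (g2 ψ (-a) (-b) * g2 ψ (-a) (-b)) • ρ (mm (ht j t)) (Lop ρ ψ i k j a b v) :=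
    congrArg (fun w => (g2 ψ (-a) (-b) * g2 ψ (-a) (-b)) • w) h1
  have hg := fun {u : V} (hu : u ∈ Wt ρ ψ (TU a b (Pi.single i 1) (Pi.single k 1))) =>
    g2_Lop hψ h2 hR hik hij hkj ha hb hu
  rw [mul_smul, mul_smul, smul_comm (g2 ψ (-a) (-b)) (g2 ψ (-((t⁻¹ : Fˣ) : F) * a) _), ← hsm,
    hg hv, smul_comm (g2 ψ (-a) (-b)) (g2 ψ (-((t⁻¹ : Fˣ) : F) * a) _),
    hg hv, ← map_smul (ρ (mm (ht j t))), hg hv] at h3
  exact h3.symm

end F2

end Cfsg.Agent.H162.Weil

private theorem dce_ebb5cf6aedab : _root_.True := by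
  try have : _root_.True := by simp only [_root_.Cfsg.Agent.H162.Weil.Lop.eq_1]
  try have : _root_.True := by simp only [_root_.Cfsg.Agent.H162.Weil.Nz.congr_simp]
  try have : _root_.True := by simp only [_root_.Cfsg.Agent.H162.Weil.g2.eq_1]
  try have : _root_.True := by simp only [_root_.Cfsg.Agent.H162.Weil.TV.eq_1]
  try have : _root_.True := by simp only [_root_.Cfsg.Agent.H162.Weil.nz.eq_1]
  try have : _root_.True := by simp only [_root_.Cfsg.Agent.H162.Weil.TU.eq_1]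
  exact _root_.True.intro
end

-- part: H162/StabGen
section
prune_inst 0x10900020000040500900000854d00009000230800e9440840080183028002870004c032000056b28010004000000000000008000000003000400301209008020010000004040008001004010000000000000000000000000000000000004010000
set_option linter.all false
open scoped Cfsg.Agent.FastGrp

/-!
# Generation of the pointwise stabiliser of coordinate functionals in `GL` (helper162)
-/

set_option autoImplicit false
open Matrix

namespace Cfsg.Agent.H162.Weil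

variable {F : Type*} [Field F] {n : ℕ} (p : Fin n → Prop) [DecidablePred p]

/-- Embedding of matrices on a subset of the indices. -/
def embP (A : Matrix {k : Fin n // p k} {k : Fin n // p k} F) :
    Matrix (Fin n) (Fin n) F :=
  fun a b => if ha : p a then (if hb : p b then A ⟨a, ha⟩ ⟨b, hb⟩ else 0) else
    if a = b then 1 else 0

variable {p}

theorem embP_pp (A : Matrix {k : Fin n // p k} {k : Fin n // p k} F) {a b : Fin n} (ha : p a)
    (hb : p b) : embP p A a b = A ⟨a, ha⟩ ⟨b, hb⟩ := by simp [embP, ha, hb]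

theorem embP_pn (A : Matrix {k : Fin n // p k} {k : Fin n // p k} F) {a b : Fin n} (ha : p a)
    (hb : ¬ p b) : embP p A a b = 0 := by simp [embP, ha, hb]

theorem embP_n (A : Matrix {k : Fin n // p k} {k : Fin n // p k} F) {a : Fin n} (b : Fin n)
    (ha : ¬ p a) : embP p A a b = if a = b then 1 else 0 := by simp [embP, ha]

theorem embP_mul (A B : Matrix {k : Fin n // p k} {k : Fin n // p k} F) :
    embP p (A * B) = embP p A * embP p B := by
  ext a b
  rw [Matrix.mul_apply, ← Fintype.sum_subtype_add_sum_subtype p]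
  by_cases ha : p a
  · have h0 : ∑ k : {k : Fin n // ¬ p k}, embP p A a k.1 * embP p B k.1 b = 0 :=
      Finset.sum_eq_zero fun k _ => by rw [embP_pn A ha k.2, zero_mul]
    rw [h0, add_zero]
    by_cases hb : p b
    · rw [embP_pp _ ha hb, Matrix.mul_apply]
      exact Finset.sum_congr rfl fun k _ => by rw [embP_pp _ ha k.2, embP_pp _ k.2 hb]
    · rw [embP_pn _ ha hb]
      symm
      exact Finset.sum_eq_zero fun k _ => by rw [embP_pn B k.2 hb, mul_zero]
  · have h0 : ∑ k : {k : Fin n // p k}, embP p A a k.1 * embP p B k.1 b = 0 :=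
      Finset.sum_eq_zero fun k _ => by
        rw [embP_n A _ ha, if_neg (fun h : a = k.1 => ha (by rw [h]; exact k.2)), zero_mul]
    rw [h0, zero_add, Finset.sum_eq_single (⟨a, ha⟩ : {k : Fin n // ¬ p k}), embP_n _ _ ha,
      embP_n _ _ ha, if_pos rfl, one_mul, embP_n _ _ ha]
    · intro k _ hk
      rw [embP_n A _ ha, if_neg (fun h => hk (Subtype.ext h.symm)), zero_mul]
    · simp

theorem embP_one : embP p (1 : Matrix {k : Fin n // p k} {k : Fin n // p k} F) = 1 := by
  ext a b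
  by_cases ha : p a
  · by_cases hb : p b
    · rw [embP_pp _ ha hb, Matrix.one_apply, Matrix.one_apply]
      simp only [Subtype.mk.injEq]
    · rw [embP_pn _ ha hb, Matrix.one_apply_ne]
      rintro rfl; exact hb ha
  · rw [embP_n _ _ ha, Matrix.one_apply]

variable (p) in
/-- `embP` on units. -/
def embPU (A : GL {k : Fin n // p k} F) : GL (Fin n) F :=
  ⟨embP p A.1, embP p A.2, by rw [← embP_mul, A.3, embP_one], by rw [← embP_mul, A.4, embP_one]⟩

variable (p) in
/-- the part of a matrix in the off-diagonal block -/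
def offP (C : Matrix (Fin n) (Fin n) F) : Matrix (Fin n) (Fin n) F :=
  fun a b => if p a ∧ ¬ p b then C a b else 0

theorem offP_add (C D : Matrix (Fin n) (Fin n) F) : offP p (C + D) = offP p C + offP p D := by
  ext a b
  simp only [offP, Matrix.add_apply]
  split_ifs <;> simp

theorem offP_mul (C D : Matrix (Fin n) (Fin n) F) : offP p C * offP p D = 0 := by
  ext a b
  rw [Matrix.mul_apply]
  refine Finset.sum_eq_zero fun k _ => ?_
  simp only [offP]
  by_cases hk : p k
  · rw [if_neg (fun h => h.2 hk), zero_mul]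
  · rw [if_neg (c := p k ∧ ¬ p b) (fun h => hk h.1), mul_zero]

theorem offP_neg (C : Matrix (Fin n) (Fin n) F) : offP p (-C) = - offP p C := by
  ext a b
  simp only [offP, Matrix.neg_apply]
  split_ifs <;> simp

variable (p) in
/-- The unipotent elements. -/
def uniP (C : Matrix (Fin n) (Fin n) F) : GL (Fin n) F :=
  ⟨1 + offP p C, 1 + offP p (-C), by
    rw [Matrix.mul_add, Matrix.mul_one, Matrix.add_mul, Matrix.one_mul, offP_mul, offP_neg]
    abel, by
    rw [Matrix.mul_add, Matrix.mul_one, Matrix.add_mul, Matrix.one_mul, offP_mul, offP_neg]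
    abel⟩

theorem uniP_coe (C : Matrix (Fin n) (Fin n) F) :
    ((uniP p C : GL (Fin n) F) : Matrix (Fin n) (Fin n) F) = 1 + offP p C := rfl

theorem uniP_add (C D : Matrix (Fin n) (Fin n) F) : uniP p (C + D) = uniP p C * uniP p D := by
  apply Units.ext
  rw [Units.val_mul, uniP_coe, uniP_coe, uniP_coe, Matrix.mul_add, Matrix.mul_one, Matrix.add_mul,
    Matrix.one_mul, offP_mul, offP_add]
  abel

/-- **Generation of the pointwise stabiliser.** -/
theorem stabP_mem (K : Subgroup (GL (Fin n) F))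
    (htv : ∀ (a b : Fin n) (hab : a ≠ b) (s : F), p a → tv a b hab s ∈ K)
    (hdg : ∀ d : Fin n → Fˣ, (∀ k, ¬ p k → d k = 1) → dg d ∈ K)
    (h : GL (Fin n) F)
    (hh : ∀ k, ¬ p k → (Pi.single k 1 : Fin n → F) ᵥ* (h : Matrix (Fin n) (Fin n) F) =
      Pi.single k 1) : h ∈ K := by
  -- the unipotent part
  have hU : ∀ C : Matrix (Fin n) (Fin n) F, uniP p C ∈ K := by
    intro C
    induction C using Matrix.induction_on' with
    | h_zero =>
      have : uniP p (0 : Matrix (Fin n) (Fin n) F) = 1 := by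
        apply Units.ext
        rw [uniP_coe]
        have : offP p (0 : Matrix (Fin n) (Fin n) F) = 0 := by
          ext a b; simp [offP]
        rw [this, add_zero]; rfl
      rw [this]; exact K.one_mem
    | h_add C D hC hD => rw [uniP_add]; exact K.mul_mem hC hD
    | h_std_basis a b s =>
      by_cases hab : p a ∧ ¬ p b
      · have hne : a ≠ b := by rintro rfl; exact hab.2 hab.1
        have : uniP p (single a b s) = tv a b hne s := by
          apply Units.ext
          rw [uniP_coe, tv_coe]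
          congr 1
          ext k l
          simp only [offP, single_apply]
          by_cases h1 : a = k ∧ b = l
          · obtain ⟨rfl, rfl⟩ := h1
            rw [if_pos hab]
          · rw [if_neg h1, ite_self]
        rw [this]
        exact htv _ _ _ _ hab.1
      · have : uniP p (single a b s) = 1 := by
          apply Units.ext
          rw [uniP_coe]
          have : offP p (single a b s) = 0 := by
            ext k l
            simp only [offP, single_apply]
            split_ifs with h1 h3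
            · obtain ⟨rfl, rfl⟩ := h3
              exact absurd h1 hab
            · rfl
            · rfl
          rw [this, add_zero]; rfl
        rw [this]; exact K.one_mem
  -- the Levi part
  have hE : ∀ A : GL {k : Fin n // p k} F, embPU p A ∈ K := by
    intro A
    suffices hs : ∀ M : Matrix {k : Fin n // p k} {k : Fin n // p k} F, det M ≠ 0 →
        ∀ A : GL {k : Fin n // p k} F, A.1 = M → embPU p A ∈ K by
      refine hs A.1 ?_ A rfl
      have := (GeneralLinearGroup.det A).ne_zero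
      rwa [GeneralLinearGroup.val_det_apply] at this
    intro M hM
    refine diagonal_transvection_induction_of_det_ne_zero (P := fun M =>
      ∀ A : GL {k : Fin n // p k} F, A.1 = M → embPU p A ∈ K) M hM ?_ ?_ ?_
    · intro D hD A hA
      have hD' : ∀ k, D k ≠ 0 := by
        intro k hk
        apply hD
        rw [det_diagonal]
        exact Finset.prod_eq_zero (Finset.mem_univ k) hk
      let d : Fin n → Fˣ := fun k => if hk : p k then Units.mk0 (D ⟨k, hk⟩) (hD' _) else 1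
      have h1 : embPU p A = dg d := by
        apply Units.ext
        rw [dg_coe]
        show embP p A.1 = _
        rw [hA]
        ext a b
        by_cases ha : p a
        · by_cases hb : p b
          · rw [embP_pp _ ha hb]
            by_cases hab : a = b
            · subst hab
              simp [d, ha]
            · rw [diagonal_apply_ne _ hab, diagonal_apply_ne]
              intro h
              exact hab (congrArg Subtype.val h)
          · rw [embP_pn _ ha hb, diagonal_apply_ne]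
            rintro rfl; exact hb ha
        · rw [embP_n _ _ ha, diagonal_apply]
          split_ifs with hab
          · subst hab; simp [d, ha]
          · rfl
      rw [h1]
      exact hdg d (fun k hk => by simp [d, hk])
    · intro t A hA
      have hab : (t.i : Fin n) ≠ (t.j : Fin n) := fun h => t.hij (Subtype.ext h)
      have h1 : embPU p A = tv (t.i : Fin n) (t.j : Fin n) hab t.c := by
        apply Units.ext
        rw [tv_coe]
        show embP p A.1 = _
        rw [hA]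
        ext a b
        rw [Matrix.add_apply]
        by_cases ha : p a
        · by_cases hb : p b
          · rw [embP_pp _ ha hb, TransvectionStruct.toMatrix, transvection, Matrix.add_apply,
              Matrix.one_apply, Matrix.one_apply, Matrix.single_apply, Matrix.single_apply]
            simp only [Subtype.mk.injEq, Subtype.ext_iff]
          · have hb' : (t.j : Fin n) ≠ b := by
              intro h; exact hb (h ▸ t.j.2)
            rw [embP_pn _ ha hb, single_apply_of_col_ne _ _ hb', add_zero, one_apply_ne]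
            rintro rfl; exact hb ha
        · have ha' : (t.i : Fin n) ≠ a := by
            intro h; exact ha (h ▸ t.i.2)
          rw [embP_n _ _ ha, single_apply_of_row_ne ha', add_zero, Matrix.one_apply]
      rw [h1]
      exact htv _ _ _ _ t.i.2
    · intro A B hA hB ihA ihB C hC
      let A' : GL {k : Fin n // p k} F := GeneralLinearGroup.mkOfDetNeZero A hA
      let B' : GL {k : Fin n // p k} F := GeneralLinearGroup.mkOfDetNeZero B hB
      have h1 : embPU p C = embPU p A' * embPU p B' := by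
        apply Units.ext
        rw [Units.val_mul]
        show embP p C.1 = embP p A * embP p B
        rw [hC, embP_mul]
      rw [h1]
      exact K.mul_mem (ihA A' rfl) (ihB B' rfl)
  -- decomposition
  have hrow : ∀ g : GL (Fin n) F,
      (∀ k, ¬ p k → (Pi.single k 1 : Fin n → F) ᵥ* (g : Matrix (Fin n) (Fin n) F) =
        Pi.single k 1) →
      ∀ a b, ¬ p a → (g : Matrix (Fin n) (Fin n) F) a b = if a = b then 1 else 0 := by
    intro g hg a b ha
    have := congrFun (hg a ha) b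
    rw [single_one_vecMul] at this
    rw [row_apply] at this
    rw [this, Pi.single_apply]
    simp only [eq_comm]
  have h1 := hrow h hh
  have hhinv : ∀ k, ¬ p k →
      (Pi.single k 1 : Fin n → F) ᵥ* ((h⁻¹ : GL (Fin n) F) : Matrix (Fin n) (Fin n) F) =
        Pi.single k 1 := by
    intro k hk
    conv_lhs => rw [← hh k hk]
    rw [vecMul_vecMul, ← Units.val_mul, mul_inv_cancel, Units.val_one, vecMul_one]
  have h3 := hrow h⁻¹ hhinv
  have key : ∀ g g' : GL (Fin n) F, g * g' = 1 →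
      (∀ a b, ¬ p a → (g' : Matrix (Fin n) (Fin n) F) a b = if a = b then 1 else 0) →
      ((g : Matrix (Fin n) (Fin n) F).submatrix (Subtype.val : {k // p k} → Fin n)
        (Subtype.val : {k // p k} → Fin n)) *
      ((g' : Matrix (Fin n) (Fin n) F).submatrix (Subtype.val : {k // p k} → Fin n)
        (Subtype.val : {k // p k} → Fin n)) = 1 := by
    intro g g' hgg hg'
    ext a b
    rw [Matrix.mul_apply]
    have e : (g : Matrix (Fin n) (Fin n) F) * (g' : Matrix (Fin n) (Fin n) F) = 1 := by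
      rw [← Units.val_mul, hgg]; rfl
    have e1 := congrFun (congrFun e a.1) b.1
    rw [Matrix.mul_apply, ← Fintype.sum_subtype_add_sum_subtype p] at e1
    have h0 : ∑ k : {k : Fin n // ¬ p k}, (g : Matrix (Fin n) (Fin n) F) a.1 k.1 *
        (g' : Matrix (Fin n) (Fin n) F) k.1 b.1 = 0 :=
      Finset.sum_eq_zero fun k _ => by
        rw [hg' k.1 b.1 k.2, if_neg (fun h : k.1 = b.1 => k.2 (by rw [h]; exact b.2)), mul_zero]
    rw [h0, add_zero] at e1
    simp only [submatrix_apply]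
    rw [e1, Matrix.one_apply, Matrix.one_apply]
    simp only [Subtype.ext_iff]
  let A : GL {k : Fin n // p k} F :=
    ⟨(h : Matrix (Fin n) (Fin n) F).submatrix Subtype.val Subtype.val,
      ((h⁻¹ : GL (Fin n) F) : Matrix (Fin n) (Fin n) F).submatrix Subtype.val Subtype.val,
      key h h⁻¹ (mul_inv_cancel h) h3, key h⁻¹ h (inv_mul_cancel h) h1⟩
  have hdec : h = uniP p (h : Matrix (Fin n) (Fin n) F) * embPU p A := by
    apply Units.ext
    rw [Units.val_mul, uniP_coe, Matrix.add_mul, Matrix.one_mul]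
    show (h : Matrix (Fin n) (Fin n) F) = embP p A.1 + _ * embP p A.1
    ext a b
    rw [Matrix.add_apply, Matrix.mul_apply, ← Fintype.sum_subtype_add_sum_subtype p]
    have h0 : ∑ k : {k : Fin n // p k}, offP p (h : Matrix (Fin n) (Fin n) F) a k.1 *
        embP p A.1 k.1 b = 0 :=
      Finset.sum_eq_zero fun k _ => by
        simp only [offP]
        rw [if_neg (fun h => h.2 k.2), zero_mul]
    rw [h0, zero_add]
    have h5 : ∑ k : {k : Fin n // ¬ p k}, offP p (h : Matrix (Fin n) (Fin n) F) a k.1 *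
        embP p A.1 k.1 b = offP p (h : Matrix (Fin n) (Fin n) F) a b := by
      by_cases hb : p b
      · rw [Finset.sum_eq_zero]
        · simp [offP, hb]
        · intro k _
          rw [embP_n _ _ k.2, if_neg (fun h : k.1 = b => k.2 (by rw [h]; exact hb)), mul_zero]
      · rw [Finset.sum_eq_single (⟨b, hb⟩ : {k : Fin n // ¬ p k}), embP_n _ _ hb, if_pos rfl,
          mul_one]
        · intro k _ hk
          rw [embP_n _ _ k.2, if_neg (fun h => hk (Subtype.ext h)), mul_zero]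
        · simp
    rw [h5]
    by_cases ha : p a
    · by_cases hb : p b
      · rw [embP_pp _ ha hb]
        simp [offP, hb, A]
      · rw [embP_pn _ ha hb, zero_add]
        simp [offP, ha, hb]
    · rw [embP_n _ _ ha, h1 a b ha]
      simp [offP, ha]
  rw [hdec]
  exact K.mul_mem (hU _) (hE _)

end Cfsg.Agent.H162.Weil

private theorem dce_c601e8d72094 : _root_.True := by
  try have : _root_.True := by simp only [_root_.Cfsg.Agent.H162.Weil.offP.eq_1]
  try have : _root_.True := by simp only [_root_.Cfsg.Agent.H162.Weil.offP.congr_simp]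
  try have : _root_.True := by simp only [_root_.Cfsg.Agent.H162.Weil.embP.congr_simp]
  try have : _root_.True := by simp only [_root_.Cfsg.Agent.H162.Weil.embP.eq_1]
  exact _root_.True.intro
end

-- part: H162/RkTwoStab
section
prune_inst 0x20008000500000020044800000000004800480008000000020000000000048020000002000000080000000000100008000000000000000100008008500402000000440009000004000000000000000000000000000000000000000000000
set_option linter.all false
open scoped Cfsg.Agent.FastGrp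

/-!
# Rank two weights over the field of three elements: stabilisers, eigenvectors, families (helper162)
-/

set_option autoImplicit false
open Matrix

namespace Cfsg.Agent.H162.Weil

variable {F : Type*} [Field F] {n : ℕ} [Fintype F] {V : Type*} [AddCommGroup V] [Module ℂ V]
  {ρ : Representation ℂ (Sp n F) V} {ψ : AddChar F ℂ}

/-! ### weights off an index -/

theorem off_eq (hψ : ψ.IsPrimitive) (h2 : (2 : F) ≠ 0) {T T' : Matrix (Fin n) (Fin n) F}
    (hT : T ∈ Sym n F) (hT' : T' ∈ Sym n F) (b : Fin n)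
    (h : ∀ S : Sym n F, (∀ k, S.1 b k = 0) → ψ (pr T' S.1) = ψ (pr T S.1)) {k l : Fin n}
    (hk : k ≠ b) (hl : l ≠ b) : T' k l = T k l := by
  have hpsi : ∀ x y : F, ψ x = ψ y → ψ (x - y) = 1 := by
    intro x y h
    rw [sub_eq_add_neg, AddChar.map_add_eq_mul, h, ← AddChar.map_add_eq_mul, add_neg_cancel,
      AddChar.map_zero_eq_one]
  have hs : ∀ (T : Matrix (Fin n) (Fin n) F), T ∈ Sym n F → ∀ x y, T x y = T y x :=
    fun T hT x y => Sym.apply ⟨T, hT⟩ x y
  by_cases hkl : k = l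
  · subst hkl
    by_contra hne
    obtain ⟨s, hs'⟩ := exists_ne_one hψ (sub_ne_zero.mpr hne)
    apply hs'
    have := hpsi _ _ (h (sD k s) (fun m => sD_zero_of_ne _ _ _ _ (fun h => hk h.1.symm)))
    rw [pr_sD, pr_sD, ← mul_sub] at this
    exact this
  · by_contra hne
    obtain ⟨s, hs'⟩ := exists_ne_one hψ (mul_ne_zero h2 (sub_ne_zero.mpr hne))
    apply hs'
    have := hpsi _ _ (h (sE k l s) (fun m => sE_zero_of_ne _ _ _ _ _ (fun h => hk h.1.symm)
      (fun h => hl h.1.symm)))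
    rw [pr_sE, pr_sE, hs T hT l k, hs T' hT' l k] at this
    rw [← this]
    congr 1
    ring

theorem wt_off (hψ : ψ.IsPrimitive) (h2 : (2 : F) ≠ 0) {T : Matrix (Fin n) (Fin n) F}
    (hT : T ∈ Sym n F) {v : V} (hv : v ∈ Wt ρ ψ T) {b : Fin n} {g : Sp n F}
    (hg : ∀ S : Sym n F, (∀ k, S.1 b k = 0) → g * uu S = uu S * g)
    {T' : Matrix (Fin n) (Fin n) F} (hT' : T' ∈ Sym n F) (h0 : Pj ρ ψ T' (ρ g v) ≠ 0)
    {k l : Fin n} (hk : k ≠ b) (hl : l ≠ b) : T' k l = T k l := by
  refine off_eq hψ h2 hT hT' b (fun S hS => ?_) hk hl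
  have h3 := Pj_mem (ρ := ρ) (ψ := ψ) T' (ρ g v) S
  rw [rho_uu_Pj, ← rho_mul, ← hg S hS, rho_mul, hv S, map_smul, map_smul] at h3
  have h4 : (ψ (pr T S.1) - ψ (pr T' S.1)) • Pj ρ ψ T' (ρ g v) = 0 := by
    rw [sub_smul, h3, sub_self]
  rcases smul_eq_zero.mp h4 with h5 | h5
  · exact (sub_eq_zero.mp h5).symm
  · exact absurd h5 h0

theorem ww_inv_comm_uu (j : Fin n) (S : Sym n F) (h : ∀ k, S.1 j k = 0) :
    (ww j)⁻¹ * uu S = uu S * (ww j)⁻¹ := by
  rw [inv_mul_eq_iff_eq_mul, ← mul_assoc, ww_comm_uu j S h, mul_assoc, mul_inv_cancel, mul_one]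

/-- (F1') for rank two. -/
theorem fix_tv2 (hψ : ψ.IsPrimitive) (h2 : (2 : F) ≠ 0) (hR : RkTwo ρ ψ) {a b : Fin n}
    (hab : a ≠ b) {T : Matrix (Fin n) (Fin n) F} (hT : T ∈ Sym n F) (hTa : ∀ k, T a k = 0)
    {k l : Fin n} (hk : k ≠ b) (hl : l ≠ b) (hkl : T k l ≠ 0) {v : V} (hv : v ∈ Wt ρ ψ T)
    (s : F) : ρ (mm (tv a b hab s)) v = v := by
  have h1 : ρ (uu (sE a b s)) (ρ (ww b)⁻¹ v) = ρ (ww b)⁻¹ v := by
    have key : ∀ T' : Sym n F, ρ (uu (sE a b s)) (Pj ρ ψ T'.1 (ρ (ww b)⁻¹ v)) =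
        Pj ρ ψ T'.1 (ρ (ww b)⁻¹ v) := by
      intro T'
      by_cases h0 : Pj ρ ψ T'.1 (ρ (ww b)⁻¹ v) = 0
      · rw [h0, map_zero]
      have hm := Pj_mem (ρ := ρ) (ψ := ψ) T'.1 (ρ (ww b)⁻¹ v)
      have hoff : ∀ {k l : Fin n}, k ≠ b → l ≠ b → T'.1 k l = T k l := fun hk hl =>
        wt_off hψ h2 hT hv (fun S hS => ww_inv_comm_uu b S hS) T'.2 h0 hk hl
      have hs : ∀ x y, T'.1 x y = T'.1 y x := fun x y => Sym.apply T' x y
      have hmin := hR T'.1 T'.2 _ hm h0 ![a, b, k] ![a, b, l]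
      rw [Matrix.det_fin_three] at hmin
      simp only [submatrix_apply, Matrix.cons_val_zero, Matrix.cons_val_one, Matrix.cons_val_two,
        Matrix.head_cons, Matrix.tail_cons, Matrix.cons_val] at hmin
      rw [hoff hab hab, hTa, hoff hab hl, hTa, hs k a, hoff hab hk, hTa, hoff hk hl, hs b a]
        at hmin
      have h3 : T'.1 a b * T'.1 a b = 0 := by
        have : (T'.1 a b * T'.1 a b) * T k l = 0 := by linear_combination -hmin
        exact (mul_eq_zero.mp this).resolve_right hkl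
      have h4 : T'.1 a b = 0 := mul_self_eq_zero.mp h3
      rw [hm (sE a b s), pr_sE, hs b a, h4, add_zero, mul_zero, AddChar.map_zero_eq_one, one_smul]
    conv_lhs => rw [← sum_Pj (ρ := ρ) hψ h2 (ρ (ww b)⁻¹ v), map_sum]
    conv_rhs => rw [← sum_Pj (ρ := ρ) hψ h2 (ρ (ww b)⁻¹ v)]
    exact Finset.sum_congr rfl fun T _ => key T
  have h3 : mm (tv a b hab s) = ww b * uu (sE a b s) * (ww b)⁻¹ := by
    rw [ww_mul_uu a b hab, mul_inv_cancel_right]
  rw [h3, rho_mul, rho_mul, h1, ← rho_mul, mul_inv_cancel, map_one, Module.End.one_apply]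

/-! ### the field of three elements -/

section three

variable (hF : Fintype.card F = 3)

include hF

theorem three_eq : (3 : F) = 0 := by
  have := FiniteField.cast_card_eq_zero F
  rw [hF] at this
  exact_mod_cast this

theorem two_eq : (2 : F) = -1 := by
  have := three_eq hF
  linear_combination this

theorem two_ne : (2 : F) ≠ 0 := by
  rw [two_eq hF]
  exact neg_ne_zero.mpr one_ne_zero

theorem tri (x : F) : x = 0 ∨ x = 1 ∨ x = -1 := by
  have h := FiniteField.pow_card x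
  rw [hF] at h
  have h1 : x * ((x - 1) * (x + 1)) = 0 := by linear_combination h
  rcases mul_eq_zero.mp h1 with h3 | h3
  · exact Or.inl h3
  · rcases mul_eq_zero.mp h3 with h4 | h4
    · exact Or.inr (Or.inl (sub_eq_zero.mp h4))
    · exact Or.inr (Or.inr (eq_neg_of_add_eq_zero_left h4))

theorem sq_ne {x : F} (hx : x ≠ 0) : x ^ 2 = 1 := by
  rcases tri hF x with h | h | h
  · exact absurd h hx
  · rw [h]; ring
  · rw [h]; ring

theorem gs_three (a : F) : gs ψ a = 1 + 2 * ψ a := by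
  classical
  have hu : (Finset.univ : Finset F) = {0, 1, -1} := by
    ext x
    simp only [Finset.mem_univ, Finset.mem_insert, Finset.mem_singleton, true_iff]
    exact tri hF x
  have h01 : (0 : F) ≠ 1 := zero_ne_one
  have h0m : (0 : F) ≠ -1 := (neg_ne_zero.mpr one_ne_zero).symm
  have h1m : (1 : F) ≠ -1 := by
    intro h
    apply two_ne hF
    linear_combination h
  rw [gs, hu, Finset.sum_insert, Finset.sum_insert, Finset.sum_singleton]
  · have e0 : a * (0 : F) ^ 2 = 0 := by ring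
    have e1 : a * (1 : F) ^ 2 = a := by ring
    have e2 : a * (-1 : F) ^ 2 = a := by ring
    rw [e0, e1, e2, AddChar.map_zero_eq_one]
    ring
  · simpa using h1m
  · simp [h01, h0m]

theorem psi_three (hψ : ψ.IsPrimitive) {a : F} (ha : a ≠ 0) : 1 + ψ a + ψ (-a) = 0 := by
  classical
  have hu : (Finset.univ : Finset F) = {0, 1, -1} := by
    ext x
    simp only [Finset.mem_univ, Finset.mem_insert, Finset.mem_singleton, true_iff]
    exact tri hF x
  have h01 : (0 : F) ≠ 1 := zero_ne_one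
  have h0m : (0 : F) ≠ -1 := (neg_ne_zero.mpr one_ne_zero).symm
  have h1m : (1 : F) ≠ -1 := by
    intro h
    apply two_ne hF
    linear_combination h
  have h := AddChar.sum_mulShift a hψ
  rw [if_neg ha, hu, Finset.sum_insert, Finset.sum_insert, Finset.sum_singleton] at h
  · rw [zero_mul, one_mul, neg_one_mul, AddChar.map_zero_eq_one] at h
    rw [Nat.cast_zero] at h
    rw [← h]; ring
  · simpa using h1m
  · simp [h01, h0m]

theorem psi_two (a : F) : ψ (-a) = ψ a ^ 2 := by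
  rw [← AddChar.map_nsmul_eq_pow]
  congr 1
  rw [nsmul_eq_mul]
  have := three_eq hF
  push_cast
  linear_combination -a * this

theorem g2_neg (hψ : ψ.IsPrimitive) {a b : F} (ha : a ≠ 0) (hb : b ≠ 0) :
    g2 ψ (-a) (-b) = g2 ψ a b := by
  have ha2 := sq_ne hF ha
  have hb2 := sq_ne hF hb
  have hab : b = a ∨ b = -a := by
    have : (b - a) * (b + a) = 0 := by linear_combination hb2 - ha2
    rcases mul_eq_zero.mp this with h | h
    · exact Or.inl (sub_eq_zero.mp h)
    · exact Or.inr (eq_neg_of_add_eq_zero_left h)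
  have h1 := psi_three hF hψ ha
  have h3 := psi_two (ψ := ψ) hF a
  rcases hab with h | h
  · subst h
    rw [g2, g2, gs_three hF, gs_three hF, h3]
    rw [h3] at h1
    have h4 : ψ b ^ 2 = - 1 - ψ b := by linear_combination h1
    rw [h4]; ring
  · subst h
    rw [g2, g2, neg_neg, mul_comm]

theorem g2_ne_zero (hψ : ψ.IsPrimitive) {a b : F} (ha : a ≠ 0) (hb : b ≠ 0) :
    g2 ψ a b ≠ 0 :=
  mul_ne_zero (gs_ne_zero hψ (two_ne hF) ha) (gs_ne_zero hψ (two_ne hF) hb)

theorem unit_three (t : Fˣ) : t = 1 ∨ t = -1 := by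
  rcases tri hF (t : F) with h | h | h
  · exact absurd h t.ne_zero
  · left; exact Units.ext h
  · right; apply Units.ext; rw [h]; simp

/-! ### the stabiliser -/

variable (hψ : ψ.IsPrimitive) (hR : RkTwo ρ ψ) {i k : Fin n} (hik : i ≠ k)
  {a b : F} (ha : a ≠ 0) (hb : b ≠ 0)

include hψ hR hik ha hb

theorem ht_fix {v : V} (hv : v ∈ Wt ρ ψ (TU a b (Pi.single i 1) (Pi.single k 1))) {j : Fin n}
    (hij : i ≠ j) (hkj : k ≠ j) (t : Fˣ) : ρ (mm (ht j t)) v = v := by
  have h1 : ρ (mm (ht j (1 : Fˣ))) v = v := by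
    have h3 : ht j (1 : Fˣ) = 1 := by
      apply Units.ext
      rw [ht_coe]; simp
    rw [h3, map_one, map_one, Module.End.one_apply]
  rcases unit_three hF t with h | h
  · rw [h, h1]
  · rw [h]
    have h3 := g2_ht hψ (two_ne hF) hR hik hij hkj ha hb hv (-1)
    have e : ∀ x : F, -(((-1 : Fˣ)⁻¹ : Fˣ) : F) * x = x := by
      intro x
      rw [inv_neg, inv_one, Units.val_neg, Units.val_one]
      ring
    rw [e, e, g2_neg hF hψ ha hb] at h3
    exact smul_right_injective V (g2_ne_zero hF hψ ha hb) h3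

theorem dg_fix {v : V} (hv : v ∈ Wt ρ ψ (TU a b (Pi.single i 1) (Pi.single k 1)))
    (d : Fin n → Fˣ) (hdi : d i = 1) (hdk : d k = 1) : ρ (mm (dg d)) v = v := by
  let M : Submonoid (Fin n → Fˣ) :=
    { carrier := {d | ρ (mm (dg d)) v = v}
      one_mem' := by
        have : (dg (1 : Fin n → Fˣ) : GL (Fin n) F) = 1 := by
          apply Units.ext
          rw [dg_coe]
          simp
        show ρ (mm (dg 1)) v = _
        rw [this, map_one, map_one, Module.End.one_apply]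
      mul_mem' := by
        intro a b ha hb
        simp only [Set.mem_ofPred_eq] at ha hb ⊢
        rw [dg_mul, map_mul, rho_mul, hb, ha] }
  have hmem : ∀ l, Pi.mulSingle l (d l) ∈ M := by
    intro l
    by_cases hl : l = i
    · subst hl
      rw [hdi, Pi.mulSingle_one]
      exact M.one_mem
    by_cases hl' : l = k
    · subst hl'
      rw [hdk, Pi.mulSingle_one]
      exact M.one_mem
    · show ρ (mm (dg (Pi.mulSingle l (d l)))) v = _
      exact ht_fix hF hψ hR hik ha hb hv (Ne.symm hl) (Ne.symm hl') (d l)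
  have := Submonoid.prod_mem M (t := Finset.univ) (f := fun k => Pi.mulSingle k (d k))
    (fun k _ => hmem k)
  rw [Finset.univ_prod_mulSingle] at this
  exact this

theorem TU_single_row {j : Fin n} (hij : i ≠ j) (hkj : k ≠ j) (l : Fin n) :
    TU a b (Pi.single i 1) (Pi.single k 1) j l = 0 := by
  rw [TU_apply]
  simp [hij.symm, hkj.symm]

/-- The pointwise stabiliser of `e_i, e_k` acts trivially on `Wt T`. -/
theorem stab2 {v : V} (hv : v ∈ Wt ρ ψ (TU a b (Pi.single i 1) (Pi.single k 1)))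
    (h : GL (Fin n) F)
    (hi : (Pi.single i 1 : Fin n → F) ᵥ* (h : Matrix (Fin n) (Fin n) F) = Pi.single i 1)
    (hk : (Pi.single k 1 : Fin n → F) ᵥ* (h : Matrix (Fin n) (Fin n) F) = Pi.single k 1) :
    ρ (mm h) v = v := by
  classical
  let K : Subgroup (GL (Fin n) F) :=
    { carrier := {h | ρ (mm h) v = v}
      one_mem' := by
        show ρ (mm 1) v = v
        rw [map_one, map_one, Module.End.one_apply]
      mul_mem' := by
        intro x y hx hy
        simp only [Set.mem_ofPred_eq] at hx hy ⊢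
        rw [map_mul, rho_mul, hy, hx]
      inv_mem' := by
        intro x hx
        simp only [Set.mem_ofPred_eq] at hx ⊢
        conv_lhs => rw [← hx]
        rw [← rho_mul, ← map_mul, inv_mul_cancel, map_one, map_one, Module.End.one_apply] }
  have : h ∈ K := by
    refine stabP_mem (p := fun x => x ≠ i ∧ x ≠ k) K ?_ ?_ h ?_
    · rintro x y hxy s ⟨hxi, hxk⟩
      show ρ (mm (tv x y hxy s)) v = v
      by_cases hy : y = i
      · refine fix_tv2 hψ (two_ne hF) hR hxy (TU_mem _ _ _ _)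
          (TU_single_row hF hψ hR hik ha hb (Ne.symm hxi) (Ne.symm hxk)) (k := k) (l := k)
          (by rw [hy]; exact hik.symm) (by rw [hy]; exact hik.symm) ?_ hv s
        rw [TU_apply]
        simp [hik.symm, hb]
      · refine fix_tv2 hψ (two_ne hF) hR hxy (TU_mem _ _ _ _)
          (TU_single_row hF hψ hR hik ha hb (Ne.symm hxi) (Ne.symm hxk)) (k := i) (l := i)
          (Ne.symm hy) (Ne.symm hy) ?_ hv s
        rw [TU_apply]
        simp [hik, ha]
    · intro d hd
      exact dg_fix hF hψ hR hik ha hb hv d (hd i (by simp)) (hd k (by simp))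
    · intro x hx
      by_cases hxi : x = i
      · rw [hxi]; exact hi
      · have : x = k := by
          by_contra hxk
          exact hx ⟨hxi, hxk⟩
        rw [this]; exact hk
  exact this

end three

end Cfsg.Agent.H162.Weil
end

-- part: H162/RkTwoFam
section
prune_inst 0x10900020008000500900000040100000000004000484400000001820000008000040020000010800000080000000000000008000000000000000000001008020010000100600008000000010000000000000000000000000000000000004010000
set_option linter.all false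
open scoped Cfsg.Agent.FastGrp

/-!
# The family of vectors attached to a rank two weight (helper162)
-/

set_option autoImplicit false
open Matrix

namespace Cfsg.Agent.H162.Weil

variable {F : Type*} [Field F] {n : ℕ}

/-! ### pairs of vectors -/

/-- independence of two vectors, by a minor -/
def Ind (x y : Fin n → F) : Prop := ∃ k l : Fin n, x k * y l - x l * y k ≠ 0

theorem vecMul_cancel_inv (g : GL (Fin n) F) (x : Fin n → F) :
    (x ᵥ* (g : Matrix (Fin n) (Fin n) F)) ᵥ*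
      ((g⁻¹ : GL (Fin n) F) : Matrix (Fin n) (Fin n) F) = x := by
  rw [vecMul_vecMul, ← Units.val_mul, mul_inv_cancel, Units.val_one, vecMul_one]

/-- move a vector to `e_k`, fixing `e_i` -/
theorem exists_fix_move {i k : Fin n} (hik : i ≠ k) (y : Fin n → F) (hy : ∃ l, l ≠ i ∧ y l ≠ 0) :
    ∃ h : GL (Fin n) F, (Pi.single i 1 : Fin n → F) ᵥ* (h : Matrix (Fin n) (Fin n) F) =
      Pi.single i 1 ∧ y ᵥ* (h : Matrix (Fin n) (Fin n) F) = Pi.single k 1 := by
  -- a vector `u` with `u i = 0`, `y ⬝ u = 1`, `u k ≠ 0`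
  obtain ⟨u, hui, hyu, huk⟩ : ∃ u : Fin n → F, u i = 0 ∧ y ⬝ᵥ u = 1 ∧ u k ≠ 0 := by
    by_cases hk : y k = 0
    · obtain ⟨l, hl, hyl⟩ := hy
      have hlk : l ≠ k := by rintro rfl; exact hyl hk
      refine ⟨Pi.single l (y l)⁻¹ + Pi.single k 1, ?_, ?_, ?_⟩
      · simp [hl.symm, hik]
      · rw [dotProduct_add, dotProduct_single, dotProduct_single, hk]
        simp [hyl]
      · simp [hlk.symm]
    · refine ⟨Pi.single k (y k)⁻¹, ?_, ?_, ?_⟩
      · simp [hik]
      · rw [dotProduct_single, mul_inv_cancel₀ hk]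
      · simp [hk]
  have h1 : 1 + (Pi.single k 1 - y) ⬝ᵥ u ≠ 0 := by
    rw [sub_dotProduct, hyu, single_dotProduct, one_mul]
    simpa using huk
  refine ⟨rk u (Pi.single k 1 - y) h1, ?_, ?_⟩
  · rw [rk_coe, vecMul_add, vecMul_one, vecMul_vecMulVec, single_dotProduct, hui]
    simp
  · rw [rk_coe, vecMul_add, vecMul_one, vecMul_vecMulVec, hyu]
    simp

theorem dep_vecMul {X Y : Fin n → F} (h : ∀ p q, X p * Y q = X q * Y p)
    (M : Matrix (Fin n) (Fin n) F) (k l : Fin n) :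
    (X ᵥ* M) k * (Y ᵥ* M) l = (X ᵥ* M) l * (Y ᵥ* M) k := by
  have e : ∀ (X : Fin n → F) k, (X ᵥ* M) k = ∑ p, X p * M p k := fun X k => rfl
  rw [e, e, e, e, Finset.sum_mul_sum, Finset.sum_mul_sum, Finset.sum_comm]
  refine Finset.sum_congr rfl fun q _ => Finset.sum_congr rfl fun p _ => ?_
  linear_combination (M p k * M q l) * h p q

theorem Ind.vecMul {x y : Fin n → F} (h : Ind x y) (g : GL (Fin n) F) :
    Ind (x ᵥ* (g : Matrix (Fin n) (Fin n) F)) (y ᵥ* (g : Matrix (Fin n) (Fin n) F)) := by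
  by_contra hc
  have hc' : ∀ k l, (x ᵥ* (g : Matrix (Fin n) (Fin n) F)) k *
      (y ᵥ* (g : Matrix (Fin n) (Fin n) F)) l =
      (x ᵥ* (g : Matrix (Fin n) (Fin n) F)) l * (y ᵥ* (g : Matrix (Fin n) (Fin n) F)) k := by
    intro k l
    by_contra h1
    exact hc ⟨k, l, sub_ne_zero.mpr h1⟩
  obtain ⟨k, l, hkl⟩ := h
  apply hkl
  have h3 := dep_vecMul hc' ((g⁻¹ : GL (Fin n) F) : Matrix (Fin n) (Fin n) F) k l
  rw [vecMul_cancel_inv, vecMul_cancel_inv] at h3
  exact sub_eq_zero.mpr h3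

theorem exists_pair {i k : Fin n} (hik : i ≠ k) {x y : Fin n → F} (h : Ind x y) :
    ∃ g : GL (Fin n) F, x ᵥ* (g : Matrix (Fin n) (Fin n) F) = Pi.single i 1 ∧
      y ᵥ* (g : Matrix (Fin n) (Fin n) F) = Pi.single k 1 := by
  have hx : x ≠ 0 := by
    rintro rfl
    obtain ⟨a, b, hab⟩ := h
    simp at hab
  obtain ⟨g1, hg1⟩ := exists_vecMul_eq_single x hx i
  have h3 := h.vecMul g1
  rw [hg1] at h3
  obtain ⟨a, b, hab⟩ := h3
  have h4 : ∃ l, l ≠ i ∧ (y ᵥ* (g1 : Matrix (Fin n) (Fin n) F)) l ≠ 0 := by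
    by_contra hc
    push Not at hc
    apply hab
    by_cases ha : a = i
    · by_cases hb : b = i
      · rw [ha, hb]; ring
      · rw [hc b hb, mul_zero, Pi.single_eq_of_ne hb, zero_mul, sub_zero]
    · rw [Pi.single_eq_of_ne ha, hc a ha]; ring
  obtain ⟨g2, hg2, hg2'⟩ := exists_fix_move hik _ h4
  refine ⟨g1 * g2, ?_, ?_⟩
  · rw [Units.val_mul, ← vecMul_vecMul, hg1, hg2]
  · rw [Units.val_mul, ← vecMul_vecMul, hg2']

/-! ### the family -/

section fam

variable [Fintype F] {V : Type*} [AddCommGroup V] [Module ℂ V]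
  {ρ : Representation ℂ (Sp n F) V} {ψ : AddChar F ℂ}

/-- The standing hypotheses. -/
structure Seed2 (ρ : Representation ℂ (Sp n F) V) (ψ : AddChar F ℂ) (i k : Fin n) (v : V)
    (ε δ : ℂ) : Prop where
  prim : ψ.IsPrimitive
  three : Fintype.card F = 3
  rk : RkTwo ρ ψ
  ik : i ≠ k
  mem : v ∈ Wt ρ ψ (TU 1 1 (Pi.single i 1) (Pi.single k 1))
  ne : v ≠ 0
  eps : ε * ε = 1
  del : δ * δ = 1
  h1 : ρ (mm (ht i (-1))) v = ε • v
  h2 : ρ (mm (ht k (-1))) v = ε • v
  h3 : ∀ g : GL (Fin n) F, (Pi.single i 1 : Fin n → F) ᵥ* (g : Matrix (Fin n) (Fin n) F) =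
    Pi.single k 1 → (Pi.single k 1 : Fin n → F) ᵥ* (g : Matrix (Fin n) (Fin n) F) =
    Pi.single i 1 → ρ (mm g) v = δ • v

open Classical in
/-- the family -/
noncomputable def fam2 (ρ : Representation ℂ (Sp n F) V) (i k : Fin n) (v : V)
    (x y : Fin n → F) : V :=
  if h : ∃ g : GL (Fin n) F, x ᵥ* (g : Matrix (Fin n) (Fin n) F) = Pi.single i 1 ∧
      y ᵥ* (g : Matrix (Fin n) (Fin n) F) = Pi.single k 1 then ρ (mm h.choose) v else 0

namespace Seed2

variable {i k : Fin n} {v : V} {ε δ : ℂ} (hs : Seed2 ρ ψ i k v ε δ)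

include hs

theorem stab (h : GL (Fin n) F)
    (hi : (Pi.single i 1 : Fin n → F) ᵥ* (h : Matrix (Fin n) (Fin n) F) = Pi.single i 1)
    (hk : (Pi.single k 1 : Fin n → F) ᵥ* (h : Matrix (Fin n) (Fin n) F) = Pi.single k 1) :
    ρ (mm h) v = v :=
  stab2 hs.three hs.prim hs.rk hs.ik one_ne_zero one_ne_zero hs.mem h hi hk

theorem fam_eq {x y : Fin n → F} {g : GL (Fin n) F}
    (hx : x ᵥ* (g : Matrix (Fin n) (Fin n) F) = Pi.single i 1)
    (hy : y ᵥ* (g : Matrix (Fin n) (Fin n) F) = Pi.single k 1) :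
    fam2 ρ i k v x y = ρ (mm g) v := by
  have h : ∃ g : GL (Fin n) F, x ᵥ* (g : Matrix (Fin n) (Fin n) F) = Pi.single i 1 ∧
      y ᵥ* (g : Matrix (Fin n) (Fin n) F) = Pi.single k 1 := ⟨g, hx, hy⟩
  rw [fam2, dif_pos h]
  set q := h.choose with hq
  have hqx : x ᵥ* (q : Matrix (Fin n) (Fin n) F) = Pi.single i 1 := h.choose_spec.1
  have hqy : y ᵥ* (q : Matrix (Fin n) (Fin n) F) = Pi.single k 1 := h.choose_spec.2
  have h1 : ρ (mm (g⁻¹ * q)) v = v := by
    apply hs.stab
    · rw [Units.val_mul, ← vecMul_vecMul, Weil.vecMul_inv hx, hqx]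
    · rw [Units.val_mul, ← vecMul_vecMul, Weil.vecMul_inv hy, hqy]
  have h3 : q = g * (g⁻¹ * q) := by rw [mul_inv_cancel_left]
  conv_lhs => rw [h3, map_mul, rho_mul, h1]

omit hs in
theorem fam_zero {x y : Fin n → F}
    (h : ¬ ∃ g : GL (Fin n) F, x ᵥ* (g : Matrix (Fin n) (Fin n) F) = Pi.single i 1 ∧
      y ᵥ* (g : Matrix (Fin n) (Fin n) F) = Pi.single k 1) :
    fam2 ρ i k v x y = 0 := by
  rw [fam2, dif_neg h]

theorem fam_mem (x y : Fin n → F) : fam2 ρ i k v x y ∈ Wt ρ ψ (TU 1 1 x y) := by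
  by_cases h : ∃ g : GL (Fin n) F, x ᵥ* (g : Matrix (Fin n) (Fin n) F) = Pi.single i 1 ∧
      y ᵥ* (g : Matrix (Fin n) (Fin n) F) = Pi.single k 1
  · obtain ⟨g, hx, hy⟩ := h
    rw [hs.fam_eq hx hy]
    have := mm_mem_TU g hs.mem
    rwa [Weil.vecMul_inv hx, Weil.vecMul_inv hy] at this
  · rw [fam_zero h]
    exact Submodule.zero_mem _

theorem fam_mm (g : GL (Fin n) F) (x y : Fin n → F) : ρ (mm g) (fam2 ρ i k v x y) =
    fam2 ρ i k v (x ᵥ* ((g⁻¹ : GL (Fin n) F) : Matrix (Fin n) (Fin n) F))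
      (y ᵥ* ((g⁻¹ : GL (Fin n) F) : Matrix (Fin n) (Fin n) F)) := by
  by_cases h : ∃ g : GL (Fin n) F, x ᵥ* (g : Matrix (Fin n) (Fin n) F) = Pi.single i 1 ∧
      y ᵥ* (g : Matrix (Fin n) (Fin n) F) = Pi.single k 1
  · obtain ⟨h, hx, hy⟩ := h
    have e : ∀ x : Fin n → F, (x ᵥ* ((g⁻¹ : GL (Fin n) F) : Matrix (Fin n) (Fin n) F)) ᵥ*
        ((g * h : GL (Fin n) F) : Matrix (Fin n) (Fin n) F) =
        x ᵥ* (h : Matrix (Fin n) (Fin n) F) := by
      intro x
      rw [vecMul_vecMul, ← Units.val_mul, inv_mul_cancel_left]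
    rw [hs.fam_eq hx hy, hs.fam_eq (g := g * h) (by rw [e, hx]) (by rw [e, hy]), map_mul, rho_mul]
  · rw [fam_zero h, map_zero, fam_zero]
    rintro ⟨q, h1, h3⟩
    apply h
    refine ⟨g⁻¹ * q, ?_, ?_⟩
    · rw [Units.val_mul, ← vecMul_vecMul, h1]
    · rw [Units.val_mul, ← vecMul_vecMul, h3]

theorem fam_act {x y x' y' : Fin n → F} (g : GL (Fin n) F) (c : ℂ)
    (hg : ∀ q : GL (Fin n) F, x ᵥ* (q : Matrix (Fin n) (Fin n) F) = Pi.single i 1 →
      y ᵥ* (q : Matrix (Fin n) (Fin n) F) = Pi.single k 1 →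
      x' ᵥ* ((q * g : GL (Fin n) F) : Matrix (Fin n) (Fin n) F) = Pi.single i 1 ∧
      y' ᵥ* ((q * g : GL (Fin n) F) : Matrix (Fin n) (Fin n) F) = Pi.single k 1)
    (hg' : ∀ q : GL (Fin n) F, x' ᵥ* (q : Matrix (Fin n) (Fin n) F) = Pi.single i 1 →
      y' ᵥ* (q : Matrix (Fin n) (Fin n) F) = Pi.single k 1 →
      ∃ q' : GL (Fin n) F, x ᵥ* (q' : Matrix (Fin n) (Fin n) F) = Pi.single i 1 ∧
      y ᵥ* (q' : Matrix (Fin n) (Fin n) F) = Pi.single k 1)
    (hc : ρ (mm g) v = c • v) : fam2 ρ i k v x' y' = c • fam2 ρ i k v x y := by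
  by_cases h : ∃ g : GL (Fin n) F, x ᵥ* (g : Matrix (Fin n) (Fin n) F) = Pi.single i 1 ∧
      y ᵥ* (g : Matrix (Fin n) (Fin n) F) = Pi.single k 1
  · obtain ⟨q, hx, hy⟩ := h
    obtain ⟨h1, h3⟩ := hg q hx hy
    rw [hs.fam_eq hx hy, hs.fam_eq h1 h3, map_mul, rho_mul, hc, map_smul]
  · rw [fam_zero h, smul_zero, fam_zero]
    rintro ⟨q, h1, h3⟩
    exact h (hg' q h1 h3)

omit hs in
theorem single_ht (i : Fin n) : (Pi.single i 1 : Fin n → F) ᵥ*
    ((ht i (-1) : GL (Fin n) F) : Matrix (Fin n) (Fin n) F) = - Pi.single i 1 := by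
  rw [ht_coe, vecMul_add, vecMul_one, vecMul_sgl, Pi.single_eq_same, one_mul, Units.val_neg,
    Units.val_one]
  ext l
  by_cases hl : l = i
  · subst hl; simp
  · simp [hl]

omit hs in
theorem single_ht_ne {i k : Fin n} (hik : i ≠ k) : (Pi.single k 1 : Fin n → F) ᵥ*
    ((ht i (-1) : GL (Fin n) F) : Matrix (Fin n) (Fin n) F) = Pi.single k 1 := by
  rw [ht_coe, vecMul_add, vecMul_one, vecMul_sgl, Pi.single_eq_of_ne hik, zero_mul,
    Pi.single_zero, add_zero]

theorem fam_neg1 (x y : Fin n → F) : fam2 ρ i k v (-x) y = ε • fam2 ρ i k v x y := by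
  refine hs.fam_act (ht i (-1)) ε (fun q hx hy => ⟨?_, ?_⟩) (fun q hx hy =>
    ⟨q * ht i (-1), ?_, ?_⟩) hs.h1
  · rw [Units.val_mul, ← vecMul_vecMul, neg_vecMul, hx, neg_vecMul, single_ht, neg_neg]
  · rw [Units.val_mul, ← vecMul_vecMul, hy, single_ht_ne hs.ik]
  · rw [neg_vecMul, neg_eq_iff_eq_neg] at hx
    rw [Units.val_mul, ← vecMul_vecMul, hx, neg_vecMul, single_ht, neg_neg]
  · rw [Units.val_mul, ← vecMul_vecMul, hy, single_ht_ne hs.ik]

theorem fam_neg2 (x y : Fin n → F) : fam2 ρ i k v x (-y) = ε • fam2 ρ i k v x y := by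
  refine hs.fam_act (ht k (-1)) ε (fun q hx hy => ⟨?_, ?_⟩) (fun q hx hy =>
    ⟨q * ht k (-1), ?_, ?_⟩) hs.h2
  · rw [Units.val_mul, ← vecMul_vecMul, hx, single_ht_ne hs.ik.symm]
  · rw [Units.val_mul, ← vecMul_vecMul, neg_vecMul, hy, neg_vecMul, single_ht, neg_neg]
  · rw [Units.val_mul, ← vecMul_vecMul, hx, single_ht_ne hs.ik.symm]
  · rw [neg_vecMul, neg_eq_iff_eq_neg] at hy
    rw [Units.val_mul, ← vecMul_vecMul, hy, neg_vecMul, single_ht, neg_neg]

theorem fam_swap (x y : Fin n → F) : fam2 ρ i k v y x = δ • fam2 ρ i k v x y := by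
  have hind : Ind (Pi.single k 1 : Fin n → F) (Pi.single i 1) := by
    refine ⟨k, i, ?_⟩
    simp [hs.ik]
  obtain ⟨g, hgk, hgi⟩ := exists_pair hs.ik hind
  refine hs.fam_act g δ (fun q hx hy => ⟨?_, ?_⟩) (fun q hx hy =>
    ⟨q * g, ?_, ?_⟩) (hs.h3 g hgi hgk)
  · rw [Units.val_mul, ← vecMul_vecMul, hy, hgk]
  · rw [Units.val_mul, ← vecMul_vecMul, hx, hgi]
  · rw [Units.val_mul, ← vecMul_vecMul, hy, hgk]
  · rw [Units.val_mul, ← vecMul_vecMul, hx, hgi]

theorem fam_ne_zero {x y : Fin n → F} (h : Ind x y) : fam2 ρ i k v x y ≠ 0 := by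
  obtain ⟨g, hx, hy⟩ := exists_pair hs.ik h
  rw [hs.fam_eq hx hy]
  intro h0
  apply hs.ne
  apply rho_inj (ρ := ρ) (mm g)
  rw [h0, map_zero]

end Seed2

/-- **Existence of a seed.** -/
theorem exists_seed2 (hψ : ψ.IsPrimitive) (hF : Fintype.card F = 3) (hR : RkTwo ρ ψ)
    {i k : Fin n} (hik : i ≠ k) (hzz : ∀ v, ρ (zz n F) v = v) {v : V}
    (hv : v ∈ Wt ρ ψ (TU 1 1 (Pi.single i 1) (Pi.single k 1))) (hne : v ≠ 0) :
    ∃ (w : V) (ε δ : ℂ), Seed2 ρ ψ i k w ε δ := by
  set T : Matrix (Fin n) (Fin n) F := TU 1 1 (Pi.single i 1) (Pi.single k 1) with hT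
  have hst : ∀ u ∈ Wt ρ ψ T, ∀ h : GL (Fin n) F,
      (Pi.single i 1 : Fin n → F) ᵥ* (h : Matrix (Fin n) (Fin n) F) = Pi.single i 1 →
      (Pi.single k 1 : Fin n → F) ᵥ* (h : Matrix (Fin n) (Fin n) F) = Pi.single k 1 →
      ρ (mm h) u = u := fun u hu h hi hk =>
    stab2 hF hψ hR hik one_ne_zero one_ne_zero hu h hi hk
  have hind : Ind (Pi.single k 1 : Fin n → F) (Pi.single i 1) := by
    refine ⟨k, i, ?_⟩
    simp [hik]
  obtain ⟨g, hgk, hgi⟩ := exists_pair hik hind
  -- the operators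
  have hA : ∀ u ∈ Wt ρ ψ T, ρ (mm (ht i (-1))) u ∈ Wt ρ ψ T := by
    intro u hu
    have := mm_mem_TU (ht i (-1)) hu
    rw [ht_inv, inv_neg, inv_one, Seed2.single_ht, Seed2.single_ht_ne hik] at this
    have e : TU 1 1 (-Pi.single i 1) (Pi.single k 1) = T := by
      ext a b; rw [hT, TU_apply, TU_apply]; simp
    rwa [e] at this
  have hB : ∀ u ∈ Wt ρ ψ T, ρ (mm g) u ∈ Wt ρ ψ T := by
    intro u hu
    have := mm_mem_TU g hu
    rw [Weil.vecMul_inv hgk, Weil.vecMul_inv hgi] at this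
    have e : TU 1 1 (Pi.single k 1) (Pi.single i 1) = T := by
      ext a b; rw [hT, TU_apply, TU_apply]; ring
    rwa [e] at this
  have hA2 : ∀ u ∈ Wt ρ ψ T, ρ (mm (ht i (-1))) (ρ (mm (ht i (-1))) u) = u := by
    intro u hu
    rw [← rho_mul, ← map_mul]
    apply hst u hu
    · rw [Units.val_mul, ← vecMul_vecMul, Seed2.single_ht, neg_vecMul, Seed2.single_ht, neg_neg]
    · rw [Units.val_mul, ← vecMul_vecMul, Seed2.single_ht_ne hik, Seed2.single_ht_ne hik]
  have hB2 : ∀ u ∈ Wt ρ ψ T, ρ (mm g) (ρ (mm g) u) = u := by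
    intro u hu
    rw [← rho_mul, ← map_mul]
    apply hst u hu
    · rw [Units.val_mul, ← vecMul_vecMul, hgi, hgk]
    · rw [Units.val_mul, ← vecMul_vecMul, hgk, hgi]
  have hK : ∀ u ∈ Wt ρ ψ T, ρ (mm (ht k (-1))) u = ρ (mm (ht i (-1))) u := by
    intro u hu
    apply rho_inj (ρ := ρ) (mm (ht i (-1)))
    rw [hA2 u hu]
    have h3 : ρ (mm ((-1 : GL (Fin n) F) * (ht i (-1) * ht k (-1)))) u = u := by
      apply hst u hu
      · rw [Units.val_mul, Units.val_mul, ← vecMul_vecMul, ← vecMul_vecMul, Units.val_neg,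
          Units.val_one, vecMul_neg, vecMul_one, neg_vecMul, Seed2.single_ht, neg_neg,
          Seed2.single_ht_ne hik.symm]
      · rw [Units.val_mul, Units.val_mul, ← vecMul_vecMul, ← vecMul_vecMul, Units.val_neg,
          Units.val_one, vecMul_neg, vecMul_one, neg_vecMul, Seed2.single_ht_ne hik, neg_vecMul,
          Seed2.single_ht, neg_neg]
    rw [map_mul, rho_mul] at h3
    have h4 : ∀ w, ρ (mm (-1 : GL (Fin n) F)) w = w := hzz
    rw [h4, map_mul, rho_mul] at h3
    exact h3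
  have hcomm : ∀ u ∈ Wt ρ ψ T, ρ (mm (ht i (-1))) (ρ (mm g) u) =
      ρ (mm g) (ρ (mm (ht i (-1))) u) := by
    intro u hu
    have h3 : ρ (mm ((g * ht k (-1))⁻¹ * (ht i (-1) * g))) u = u := by
      apply hst u hu
      · have e1 : (Pi.single i 1 : Fin n → F) ᵥ*
            ((g * ht k (-1) : GL (Fin n) F) : Matrix (Fin n) (Fin n) F) = -Pi.single k 1 := by
          rw [Units.val_mul, ← vecMul_vecMul, hgi, Seed2.single_ht]
        have e2 : (Pi.single k 1 : Fin n → F) ᵥ*
            ((g * ht k (-1) : GL (Fin n) F) : Matrix (Fin n) (Fin n) F) = Pi.single i 1 := by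
          rw [Units.val_mul, ← vecMul_vecMul, hgk, Seed2.single_ht_ne hik.symm]
        rw [Units.val_mul, ← vecMul_vecMul, Weil.vecMul_inv e2, Units.val_mul, ← vecMul_vecMul,
          Seed2.single_ht_ne hik, hgk]
      · have e1 : (-Pi.single i 1 : Fin n → F) ᵥ*
            ((g * ht k (-1) : GL (Fin n) F) : Matrix (Fin n) (Fin n) F) = Pi.single k 1 := by
          rw [Units.val_mul, ← vecMul_vecMul, neg_vecMul, hgi, neg_vecMul, Seed2.single_ht,
            neg_neg]
        rw [Units.val_mul, ← vecMul_vecMul, Weil.vecMul_inv e1, Units.val_mul, ← vecMul_vecMul,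
          neg_vecMul, Seed2.single_ht, neg_neg, hgi]
    have h5 := congrArg (ρ (mm (g * ht k (-1)))) h3
    rw [← rho_mul, ← map_mul, mul_inv_cancel_left, map_mul, rho_mul, map_mul, rho_mul,
      hK u hu] at h5
    exact h5
  -- first eigenvector
  obtain ⟨u, hu, hu0, ε, hε, hAu⟩ : ∃ u ∈ Wt ρ ψ T, u ≠ 0 ∧ ∃ ε : ℂ, ε * ε = 1 ∧
      ρ (mm (ht i (-1))) u = ε • u := by
    by_cases h : v + ρ (mm (ht i (-1))) v = 0
    · refine ⟨v, hv, hne, -1, by norm_num, ?_⟩
      rw [neg_one_smul]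
      exact eq_neg_of_add_eq_zero_right h
    · refine ⟨_, Submodule.add_mem _ hv (hA v hv), h, 1, by norm_num, ?_⟩
      rw [map_add, hA2 v hv, one_smul, add_comm]
  obtain ⟨w, hw, hw0, hAw, δ, hδ, hBw⟩ : ∃ w ∈ Wt ρ ψ T, w ≠ 0 ∧
      ρ (mm (ht i (-1))) w = ε • w ∧ ∃ δ : ℂ, δ * δ = 1 ∧ ρ (mm g) w = δ • w := by
    by_cases h : u + ρ (mm g) u = 0
    · refine ⟨u, hu, hu0, hAu, -1, by norm_num, ?_⟩
      rw [neg_one_smul]
      exact eq_neg_of_add_eq_zero_right h
    · refine ⟨_, Submodule.add_mem _ hu (hB u hu), h, ?_, 1, by norm_num, ?_⟩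
      · rw [map_add, hcomm u hu, hAu, map_smul, smul_add]
      · rw [map_add, hB2 u hu, one_smul, add_comm]
  refine ⟨w, ε, δ, ⟨hψ, hF, hR, hik, hw, hw0, hε, hδ, hAw, ?_, ?_⟩⟩
  · rw [hK w hw, hAw]
  · intro q hqi hqk
    have h1 : ρ (mm (g⁻¹ * q)) w = w := by
      apply hst w hw
      · rw [Units.val_mul, ← vecMul_vecMul, Weil.vecMul_inv hgk, hqk]
      · rw [Units.val_mul, ← vecMul_vecMul, Weil.vecMul_inv hgi, hqi]
    have h3 : q = g * (g⁻¹ * q) := by rw [mul_inv_cancel_left]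
    rw [h3, map_mul, rho_mul, h1, hBw]

end fam

end Cfsg.Agent.H162.Weil

private theorem dce_2896b426ffe2 : _root_.True := by
  try have : _root_.True := by simp only [_root_.Cfsg.Agent.H162.Weil.fam2.eq_1]
  exact _root_.True.intro
end

-- part: H495/TI/Emb
section
prune_inst 0x10900020000040000900000810500009000030800300400400007d00080028600404038000014900010000000000000000000000000003000000301209000420002000104440009800000010000000000000000000000000000041000004010000
set_option linter.all false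
open scoped Cfsg.Agent.FastGrp

/-!
# The embedding of `Sp_2m` in `Sp_2(m+1)` and the Heisenberg group (helper495)
-/

set_option autoImplicit false
set_option linter.unusedSectionVars false
set_option linter.unusedSimpArgs false
open Matrix

namespace Cfsg.Agent.H495.TI

open Cfsg.Agent.H162.Weil

variable {F : Type*} [Field F] {m : ℕ}

/-- Block matrix `diag(c, A)`. -/
def up (c : F) (A : Matrix (Fin m) (Fin m) F) : Matrix (Fin (m + 1)) (Fin (m + 1)) F :=
  Matrix.of (Fin.cons (Fin.cons c 0) (fun i => Fin.cons 0 (A i)))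

@[simp] theorem up_00 (c : F) (A : Matrix (Fin m) (Fin m) F) : up c A 0 0 = c := rfl
@[simp] theorem up_0s (c : F) (A : Matrix (Fin m) (Fin m) F) (j : Fin m) :
    up c A 0 j.succ = 0 := rfl
@[simp] theorem up_s0 (c : F) (A : Matrix (Fin m) (Fin m) F) (i : Fin m) :
    up c A i.succ 0 = 0 := rfl
@[simp] theorem up_ss (c : F) (A : Matrix (Fin m) (Fin m) F) (i j : Fin m) :
    up c A i.succ j.succ = A i j := rfl

theorem up_ext {A B : Matrix (Fin (m + 1)) (Fin (m + 1)) F} (h00 : A 0 0 = B 0 0)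
    (h0s : ∀ j : Fin m, A 0 j.succ = B 0 j.succ) (hs0 : ∀ i : Fin m, A i.succ 0 = B i.succ 0)
    (hss : ∀ i j : Fin m, A i.succ j.succ = B i.succ j.succ) : A = B := by
  ext i j
  refine Fin.cases ?_ (fun i => ?_) i
  · exact Fin.cases h00 h0s j
  · exact Fin.cases (hs0 i) (hss i) j

theorem up_mul (c d : F) (A B : Matrix (Fin m) (Fin m) F) :
    up c A * up d B = up (c * d) (A * B) := by
  refine up_ext ?_ ?_ ?_ ?_ <;> intros <;> simp only [Matrix.mul_apply, Fin.sum_univ_succ, _root_.Cfsg.Agent.H495.TI.up_00, _root_.Cfsg.Agent.H495.TI.up_0s, _root_.Cfsg.Agent.H495.TI.up_s0, _root_.MulZeroClass.mul_zero, _root_.Finset.sum_const_zero, _root_.add_zero, _root_.Cfsg.Agent.H495.TI.up_ss, _root_.MulZeroClass.zero_mul, _root_.zero_add]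

theorem up_add (c d : F) (A B : Matrix (Fin m) (Fin m) F) :
    up c A + up d B = up (c + d) (A + B) := by
  refine up_ext ?_ ?_ ?_ ?_ <;> intros <;> simp

theorem up_neg (c : F) (A : Matrix (Fin m) (Fin m) F) : -up c A = up (-c) (-A) := by
  refine up_ext ?_ ?_ ?_ ?_ <;> intros <;> simp

theorem up_sub (c d : F) (A B : Matrix (Fin m) (Fin m) F) :
    up c A - up d B = up (c - d) (A - B) := by
  refine up_ext ?_ ?_ ?_ ?_ <;> intros <;> simp

theorem up_transpose (c : F) (A : Matrix (Fin m) (Fin m) F) : (up c A)ᵀ = up c Aᵀ := by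
  refine up_ext ?_ ?_ ?_ ?_ <;> intros <;> simp

theorem up_zero : up (0 : F) (0 : Matrix (Fin m) (Fin m) F) = 0 := by
  refine up_ext ?_ ?_ ?_ ?_ <;> intros <;> simp

theorem up_one : up (1 : F) (1 : Matrix (Fin m) (Fin m) F) = 1 := by
  refine up_ext ?_ ?_ ?_ ?_ <;> intros <;> simp [Matrix.one_apply, Fin.succ_ne_zero, eq_comm]

theorem up_single (i j : Fin m) (x : F) : up 0 (single i j x) = single i.succ j.succ x := by
  refine up_ext ?_ ?_ ?_ ?_ <;> intros <;>
    simp [Matrix.single_apply, Fin.succ_ne_zero, (Fin.succ_ne_zero _).symm]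

/-- `GL_m` in `GL_(m+1)`. -/
def upG : GL (Fin m) F →* GL (Fin (m + 1)) F where
  toFun h := ⟨up 1 (h : Matrix (Fin m) (Fin m) F), up 1 ((h⁻¹ : GL (Fin m) F) : Matrix _ _ F), by
    rw [up_mul, ← Units.val_mul, mul_inv_cancel, one_mul, Units.val_one, up_one], by
    rw [up_mul, ← Units.val_mul, inv_mul_cancel, one_mul, Units.val_one, up_one]⟩
  map_one' := by
    apply Units.ext
    show up 1 _ = _
    rw [Units.val_one, up_one]; rfl
  map_mul' g h := by
    apply Units.ext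
    show up 1 _ = up 1 _ * up 1 _
    rw [Units.val_mul, up_mul, one_mul]

theorem upG_coe (h : GL (Fin m) F) : ((upG h : GL (Fin (m + 1)) F) : Matrix _ _ F) =
    up 1 (h : Matrix (Fin m) (Fin m) F) := rfl

theorem upG_inv_coe (h : GL (Fin m) F) : (((upG h)⁻¹ : GL (Fin (m + 1)) F) : Matrix _ _ F) =
    up 1 ((h⁻¹ : GL (Fin m) F) : Matrix (Fin m) (Fin m) F) := rfl

theorem upG_tv (i j : Fin m) (h : i ≠ j) (b : F) :
    upG (tv i j h b) = tv i.succ j.succ (fun e => h (Fin.succ_injective _ e)) b := by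
  apply Units.ext
  rw [upG_coe, tv_coe, tv_coe, ← up_single, ← up_one, up_add, add_zero]

/-- symmetric matrices -/
def upS (S : Sym m F) : Sym (m + 1) F := ⟨up 0 S.1, by
  have := S.2
  rw [mem_Sym] at this ⊢
  rw [up_transpose, this]⟩

theorem upS_coe (S : Sym m F) : (upS S).1 = up 0 S.1 := rfl

theorem blocks (g : Matrix (Fin m ⊕ Fin m) (Fin m ⊕ Fin m) F) :
    fromBlocks g.toBlocks₁₁ g.toBlocks₁₂ g.toBlocks₂₁ g.toBlocks₂₂ = g := fromBlocks_toBlocks g

/-- the matrix of `emb g` -/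
def embM (g : Matrix (Fin m ⊕ Fin m) (Fin m ⊕ Fin m) F) :
    Matrix (Fin (m + 1) ⊕ Fin (m + 1)) (Fin (m + 1) ⊕ Fin (m + 1)) F :=
  fromBlocks (up 1 g.toBlocks₁₁) (up 0 g.toBlocks₁₂) (up 0 g.toBlocks₂₁) (up 1 g.toBlocks₂₂)

theorem embM_blocks (A B C D : Matrix (Fin m) (Fin m) F) :
    embM (fromBlocks A B C D) = fromBlocks (up 1 A) (up 0 B) (up 0 C) (up 1 D) := rfl

theorem embM_mul (g h : Matrix (Fin m ⊕ Fin m) (Fin m ⊕ Fin m) F) :
    embM (g * h) = embM g * embM h := by
  conv_lhs => rw [← blocks g, ← blocks h, fromBlocks_multiply]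
  rw [embM_blocks, embM, embM, fromBlocks_multiply]
  simp only [up_mul, up_add]
  simp

theorem embM_one : embM (1 : Matrix (Fin m ⊕ Fin m) (Fin m ⊕ Fin m) F) = 1 := by
  rw [← fromBlocks_one, embM_blocks, up_one, up_zero, fromBlocks_one]

theorem embM_mem {g : Matrix (Fin m ⊕ Fin m) (Fin m ⊕ Fin m) F}
    (hg : g ∈ Matrix.symplecticGroup (Fin m) F) :
    embM g ∈ Matrix.symplecticGroup (Fin (m + 1)) F := by
  rw [← blocks g, SymplecticGroup.fromBlocks_mem_iff] at hg
  rw [embM, SymplecticGroup.fromBlocks_mem_iff]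
  obtain ⟨h1, h2, h3⟩ := hg
  refine ⟨?_, ?_, ?_⟩
  · simp only [up_transpose, up_mul, h1, mul_zero, zero_mul]
  · simp only [up_transpose, up_mul, h2, mul_zero, zero_mul]
  · simp only [up_transpose, up_mul, up_sub, h3]
    simp [up_one]

/-- **The embedding** of `Sp_2m` in `Sp_2(m+1)` (first coordinate pair fixed). -/
def emb : Sp m F →* Sp (m + 1) F where
  toFun g := ⟨embM g.1, embM_mem g.2⟩
  map_one' := Subtype.ext embM_one
  map_mul' g h := Subtype.ext (embM_mul g.1 h.1)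

theorem emb_coe (g : Sp m F) : (emb g).1 = embM g.1 := rfl

theorem emb_uu (S : Sym m F) : emb (uu S) = uu (upS S) := by
  apply Subtype.ext
  show embM (fromBlocks 1 S.1 0 1) = fromBlocks 1 (up 0 S.1) 0 1
  rw [embM_blocks, up_one, up_zero]

theorem emb_mm (h : GL (Fin m) F) : emb (mm h) = mm (upG h) := by
  apply Subtype.ext
  rw [emb_coe, mm_coe, mm_coe, embM_blocks, up_zero, upG_coe, upG_inv_coe, up_transpose]

/-! ### Heisenberg group -/

/-- vector in the first block -/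
def inc (a : Fin m → F) : Fin (m + 1) → F := Fin.cons 0 a

@[simp] theorem inc_zero (a : Fin m → F) : inc a 0 = 0 := rfl
@[simp] theorem inc_succ (a : Fin m → F) (i : Fin m) : inc a i.succ = a i := rfl

/-- the symmetric matrix with zeroth row `(s, a)` and zero elsewhere -/
def sR (a : Fin m → F) (s : F) : Sym (m + 1) F :=
  ⟨Matrix.of (Fin.cons (Fin.cons s a) (fun i => Fin.cons (a i) 0)), by
    rw [mem_Sym]
    refine up_ext ?_ ?_ ?_ ?_ <;> intros <;> simp⟩

@[simp] theorem sR_00 (a : Fin m → F) (s : F) : (sR a s).1 0 0 = s := rfl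
@[simp] theorem sR_0s (a : Fin m → F) (s : F) (j : Fin m) : (sR a s).1 0 j.succ = a j := rfl
@[simp] theorem sR_s0 (a : Fin m → F) (s : F) (j : Fin m) : (sR a s).1 j.succ 0 = a j := rfl
@[simp] theorem sR_ss (a : Fin m → F) (s : F) (i j : Fin m) : (sR a s).1 i.succ j.succ = 0 := rfl

theorem sR_add (a b : Fin m → F) (s t : F) : sR a s + sR b t = sR (a + b) (s + t) := by
  apply Subtype.ext
  refine up_ext ?_ ?_ ?_ ?_ <;> intros <;> simp

theorem sym_decomp (S : Sym (m + 1) F) : ∃ (a : Fin m → F) (s : F) (S' : Sym m F),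
    S = sR a s + upS S' := by
  refine ⟨fun j => S.1 0 j.succ, S.1 0 0, ⟨Matrix.of fun i j => S.1 i.succ j.succ, ?_⟩, ?_⟩
  · rw [mem_Sym]
    ext i j
    exact Sym.apply S j.succ i.succ
  · apply Subtype.ext
    refine up_ext ?_ ?_ ?_ ?_
    · simp [upS_coe]
    · intro j; simp [upS_coe]
    · intro j
      simp only [AddSubgroup.coe_add, Matrix.add_apply, sR_s0, upS_coe, up_s0, add_zero]
      exact Sym.apply S j.succ 0
    · intro i j; simp [upS_coe]

/-- the first basis vector -/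
def e0 (m : ℕ) (F : Type*) [Field F] : Fin (m + 1) → F := Fin.cons 1 0

@[simp] theorem e0_zero : e0 m F 0 = 1 := rfl
@[simp] theorem e0_succ (i : Fin m) : e0 m F i.succ = 0 := rfl

theorem inc_dot_e0 (b : Fin m → F) : inc b ⬝ᵥ e0 m F = 0 := by
  simp only [dotProduct, Fin.sum_univ_succ, _root_.Cfsg.Agent.H495.TI.inc_zero, _root_.Cfsg.Agent.H495.TI.e0_zero, _root_.mul_one, _root_.Cfsg.Agent.H495.TI.inc_succ, _root_.Cfsg.Agent.H495.TI.e0_succ, _root_.MulZeroClass.mul_zero, _root_.Finset.sum_const_zero, _root_.add_zero]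

theorem inc_dot_inc (a b : Fin m → F) : inc a ⬝ᵥ inc b = a ⬝ᵥ b := by
  simp only [dotProduct, Fin.sum_univ_succ, _root_.Cfsg.Agent.H495.TI.inc_zero, _root_.MulZeroClass.mul_zero, _root_.Cfsg.Agent.H495.TI.inc_succ, _root_.zero_add]

theorem inc_add (a b : Fin m → F) : inc (a + b) = inc a + inc b := by
  ext i
  refine Fin.cases ?_ (fun i => ?_) i <;> simp

/-- `1 - e_0 bᵀ` -/
def hb (b : Fin m → F) : GL (Fin (m + 1)) F :=
  ⟨1 - vecMulVec (e0 m F) (inc b), 1 + vecMulVec (e0 m F) (inc b), by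
    rw [Matrix.sub_mul, Matrix.one_mul, Matrix.mul_add, Matrix.mul_one, vecMulVec_mul_self,
      inc_dot_e0, zero_smul, add_zero, add_sub_cancel_right], by
    rw [Matrix.add_mul, Matrix.one_mul, Matrix.mul_sub, Matrix.mul_one, vecMulVec_mul_self,
      inc_dot_e0, zero_smul, sub_zero, sub_add_cancel]⟩

theorem hb_coe (b : Fin m → F) :
    ((hb b : GL (Fin (m + 1)) F) : Matrix (Fin (m + 1)) (Fin (m + 1)) F) =
    1 - vecMulVec (e0 m F) (inc b) := rfl

theorem hb_inv_coe (b : Fin m → F) :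
    (((hb b)⁻¹ : GL (Fin (m + 1)) F) : Matrix (Fin (m + 1)) (Fin (m + 1)) F) =
    1 + vecMulVec (e0 m F) (inc b) := rfl

theorem hb_add (a b : Fin m → F) : hb (a + b) = hb a * hb b := by
  apply Units.ext
  rw [Units.val_mul, hb_coe, hb_coe, hb_coe, Matrix.sub_mul, Matrix.one_mul, Matrix.mul_sub,
    Matrix.mul_one, vecMulVec_mul_vecMulVec, inc_dot_e0, zero_smul, inc_add, vecMulVec_add,
    vecMulVec_zero]
  abel

theorem hb_zero : hb (0 : Fin m → F) = 1 := by
  apply Units.ext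
  rw [hb_coe]
  have : inc (0 : Fin m → F) = 0 := by
    ext i; refine Fin.cases ?_ (fun i => ?_) i <;> simp
  rw [this]
  simp

/-- the Heisenberg element with `w = (a, b)`, `s` -/
def qq (a b : Fin m → F) (s : F) : Sp (m + 1) F := uu (sR a (s - a ⬝ᵥ b)) * mm (hb b)

theorem sR_coe (a : Fin m → F) (s : F) : (sR a s).1 =
    vecMulVec (inc a) (e0 m F) + vecMulVec (e0 m F) (inc a) + s • vecMulVec (e0 m F) (e0 m F) := by
  refine up_ext ?_ ?_ ?_ ?_ <;> intros <;> simp [vecMulVec_apply, Fin.succ_ne_zero]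

theorem qq_coe (a b : Fin m → F) (s : F) : (qq a b s).1 =
    fromBlocks (1 - vecMulVec (e0 m F) (inc b)) (sR a s).1 0
      (1 + vecMulVec (inc b) (e0 m F)) := by
  rw [qq, Submonoid.coe_mul, uu_coe, mm_coe, fromBlocks_multiply, hb_coe, hb_inv_coe,
    transpose_add, transpose_one, transpose_vecMulVec]
  congr 1
  · simp only [_root_.one_mul, _root_.MulZeroClass.mul_zero, _root_.add_zero]
  · rw [Matrix.mul_add, Matrix.mul_one, mul_vecMulVec, Matrix.one_mul, zero_add]
    have h1 : (sR a (s - a ⬝ᵥ b)).1 *ᵥ inc b = (a ⬝ᵥ b) • e0 m F := by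
      rw [sR_coe, add_mulVec, add_mulVec, smul_mulVec, vecMulVec_mulVec, vecMulVec_mulVec,
        vecMulVec_mulVec, dotProduct_comm (e0 m F), inc_dot_e0, inc_dot_inc]
      simp only [_root_.MulOpposite.op_zero, _root_.zero_smul, _root_.IsCentralScalar.op_smul_eq_smul, _root_.zero_add, _root_.smul_zero, _root_.add_zero]
    rw [h1, sR_coe, sR_coe, smul_vecMulVec, sub_smul]
    abel
  · simp
  · simp

/-- vectors of the smaller space -/
def incc (w : Fin m ⊕ Fin m → F) : Fin (m + 1) ⊕ Fin (m + 1) → F :=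
  Sum.elim (inc (w ∘ Sum.inl)) (inc (w ∘ Sum.inr))

/-- the centre -/
def ee (m : ℕ) (F : Type*) [Field F] : Fin (m + 1) ⊕ Fin (m + 1) → F := Sum.elim (e0 m F) 0

theorem up_mulVec (c : F) (A : Matrix (Fin m) (Fin m) F) (a : Fin m → F) :
    up c A *ᵥ inc a = inc (A *ᵥ a) := by
  ext i
  refine Fin.cases ?_ (fun i => ?_) i <;> simp only [mulVec, dotProduct, Fin.sum_univ_succ, _root_.Cfsg.Agent.H495.TI.up_00, _root_.Cfsg.Agent.H495.TI.inc_zero, _root_.MulZeroClass.mul_zero, _root_.Cfsg.Agent.H495.TI.up_0s, _root_.Cfsg.Agent.H495.TI.inc_succ, _root_.MulZeroClass.zero_mul, _root_.Finset.sum_const_zero, _root_.add_zero, _root_.Cfsg.Agent.H495.TI.up_s0, _root_.Cfsg.Agent.H495.TI.up_ss, _root_.zero_add]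

theorem up_mulVec_e0 (c : F) (A : Matrix (Fin m) (Fin m) F) :
    up c A *ᵥ e0 m F = c • e0 m F := by
  ext i
  refine Fin.cases ?_ (fun i => ?_) i <;> simp only [mulVec, dotProduct, Fin.sum_univ_succ, _root_.Cfsg.Agent.H495.TI.up_00, _root_.Cfsg.Agent.H495.TI.e0_zero, _root_.mul_one, _root_.Cfsg.Agent.H495.TI.up_0s, _root_.Cfsg.Agent.H495.TI.e0_succ, _root_.MulZeroClass.mul_zero, _root_.Finset.sum_const_zero, _root_.add_zero, _root_.Pi.smul_apply, _root_.smul_eq_mul, _root_.Cfsg.Agent.H495.TI.up_s0, _root_.Cfsg.Agent.H495.TI.up_ss]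

theorem embM_incc (g : Matrix (Fin m ⊕ Fin m) (Fin m ⊕ Fin m) F) (w : Fin m ⊕ Fin m → F) :
    embM g *ᵥ incc w = incc (g *ᵥ w) := by
  have h1 : g *ᵥ w = Sum.elim (g.toBlocks₁₁ *ᵥ (w ∘ Sum.inl) + g.toBlocks₁₂ *ᵥ (w ∘ Sum.inr))
      (g.toBlocks₂₁ *ᵥ (w ∘ Sum.inl) + g.toBlocks₂₂ *ᵥ (w ∘ Sum.inr)) := by
    conv_lhs => rw [← blocks g, ← Sum.elim_comp_inl_inr w, fromBlocks_mulVec]
    simp
  rw [h1, incc, incc, embM, fromBlocks_mulVec]
  simp only [Sum.elim_comp_inl, Sum.elim_comp_inr, up_mulVec, inc_add]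

theorem embM_ee (g : Matrix (Fin m ⊕ Fin m) (Fin m ⊕ Fin m) F) :
    embM g *ᵥ ee m F = ee m F := by
  rw [embM, ee, fromBlocks_mulVec]
  simp only [Sum.elim_comp_inl, Sum.elim_comp_inr, up_mulVec_e0, mulVec_zero, add_zero, one_smul,
    zero_smul]

theorem J_mulVec {k : ℕ} (x y : Fin k → F) :
    Matrix.J (Fin k) F *ᵥ Sum.elim x y = Sum.elim (-y) x := by
  rw [Matrix.J, fromBlocks_mulVec]
  simp only [Sum.elim_comp_inl, Sum.elim_comp_inr, zero_mulVec, neg_mulVec, one_mulVec, zero_add,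
    add_zero]

/-- The Heisenberg elements as rank one perturbations. -/
theorem qq_coe' (w : Fin m ⊕ Fin m → F) (s : F) : (qq (w ∘ Sum.inl) (w ∘ Sum.inr) s).1 =
    1 + vecMulVec (incc w) (Matrix.J (Fin (m + 1)) F *ᵥ ee m F) +
      vecMulVec (ee m F) (Matrix.J (Fin (m + 1)) F *ᵥ incc w) +
      s • vecMulVec (ee m F) (Matrix.J (Fin (m + 1)) F *ᵥ ee m F) := by
  rw [qq_coe, sR_coe, incc, ee, J_mulVec, J_mulVec]
  ext i j
  rcases i with i | i <;> rcases j with j | j <;>
    simp [vecMulVec_apply, Matrix.one_apply, sub_eq_add_neg]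

theorem J_emb (g : Sp m F) (v : Fin (m + 1) ⊕ Fin (m + 1) → F) :
    (Matrix.J (Fin (m + 1)) F *ᵥ (embM g.1 *ᵥ v)) ᵥ* embM g.1 =
      Matrix.J (Fin (m + 1)) F *ᵥ v := by
  have h := SymplecticGroup.mem_iff'.mp (emb g).2
  rw [emb_coe] at h
  rw [← mulVec_transpose, mulVec_mulVec, mulVec_mulVec, h]

/-- **Conjugation**. -/
theorem emb_qq (g : Sp m F) (w : Fin m ⊕ Fin m → F) (s : F) :
    emb g * qq (w ∘ Sum.inl) (w ∘ Sum.inr) s =
      qq ((g.1 *ᵥ w) ∘ Sum.inl) ((g.1 *ᵥ w) ∘ Sum.inr) s * emb g := by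
  apply Subtype.ext
  rw [Submonoid.coe_mul, Submonoid.coe_mul, qq_coe', qq_coe', emb_coe]
  simp only [Matrix.mul_add, Matrix.add_mul, Matrix.mul_one, Matrix.one_mul, Matrix.mul_smul,
    Matrix.smul_mul, mul_vecMulVec, vecMulVec_mul, embM_incc, embM_ee]
  have h1 := J_emb g (ee m F)
  rw [embM_ee] at h1
  have h2 := J_emb g (incc w)
  rw [embM_incc] at h2
  rw [h1, h2]

end Cfsg.Agent.H495.TI

private theorem dce_d18709f567bb : _root_.True := by
  try have : _root_.True := by simp only [_root_.Cfsg.Agent.H495.TI.embM.eq_1]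
  try have : _root_.True := by simp only [_root_.Cfsg.Agent.H495.TI.ee.eq_1]
  try have : _root_.True := by simp only [_root_.Cfsg.Agent.H495.TI.incc.eq_1]
  try have : _root_.True := by simp only [_root_.Cfsg.Agent.H495.TI.qq.eq_1]
  try have : _root_.True := by simp only [_root_.Cfsg.Agent.H495.TI.e0.eq_1]
  exact _root_.True.intro
end
end

-- part: H495/TI/FJ
section
prune_inst 0x4010000
set_option linter.all false
open scoped Cfsg.Agent.FastGrp

/-!
# Fourier–Jacobi modules (helper495)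

`V` a representation of `Sp_2(m+1)(F)`. `MM ρ ψ c` is the space of linear maps from the model
`W m F` of the Heisenberg group to `V` commuting with the Heisenberg group `Q`; the group `Sp_2m`
acts on it by `τ g φ = ρ (emb g) ∘ φ ∘ ω (g⁻¹)`.
-/

set_option autoImplicit false
set_option linter.unusedSectionVars false
set_option linter.unusedSimpArgs false
open Matrix Module

namespace Cfsg.Agent.H495.TI

open Cfsg.Agent.H162.Weil

variable {F : Type*} [Field F] {m : ℕ} [Fintype F] {ψ : AddChar F ℂ} {c : F}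

/-- The Weil representation intertwines the Heisenberg operators. -/
theorem weil_isInt {ω : Representation ℂ (Sp m F) (W m F)} (hω : IsWeil ψ c ω) (j : Fin m)
    (g : Sp m F) (w : Fin m ⊕ Fin m → F) (f : W m F) :
    ω g (Mop ψ c w f) =
      Mop ψ c ((g : Matrix (Fin m ⊕ Fin m) (Fin m ⊕ Fin m) F) *ᵥ w) (ω g f) := by
  revert w f
  refine gen_induct j (P := fun g => ∀ w f, ω g (Mop ψ c w f) =
      Mop ψ c ((g : Matrix (Fin m ⊕ Fin m) (Fin m ⊕ Fin m) F) *ᵥ w) (ω g f)) ?_ ?_ ?_ ?_ ?_ g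
  · intro w f
    simp only [_root_.map_one, _root_.Module.End.one_apply, _root_.OneMemClass.coe_one, _root_.Matrix.one_mulVec]
  · intro g h hg hh w f
    rw [rho_mul, hh, hg, Submonoid.coe_mul, mulVec_mulVec, rho_mul]
  · intro S w f
    rw [hω.w1, hω.w1]
    exact (isInt_uu S).1 w f
  · intro h w f
    obtain ⟨d, -, hd⟩ := hω.w3 h
    rw [hd, hd, map_smul]
    congr 1
    exact (isInt_mm h).1 w f
  · intro w f
    obtain ⟨d, -, hd⟩ := hω.w4 j
    rw [hd, hd, map_smul]
    congr 1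
    exact (isInt_ww hω.prim hω.two hω.lam0 j).1 w f

variable {V : Type*} [AddCommGroup V] [Module ℂ V]

/-- The multiplicity space. -/
def MM (ρ : Representation ℂ (Sp (m + 1) F) V) (ψ : AddChar F ℂ) (c : F) :
    Submodule ℂ (W m F →ₗ[ℂ] V) where
  carrier := {φ | (∀ (w : Fin m ⊕ Fin m → F) (f : W m F),
      φ (Mop ψ c w f) = ρ (qq (w ∘ Sum.inl) (w ∘ Sum.inr) 0) (φ f)) ∧
      ∀ (s : F) (f : W m F), ρ (uu (sR 0 s)) (φ f) = ψ (c * s) • φ f}
  add_mem' {φ φ'} h h' := by
    refine ⟨fun w f => ?_, fun s f => ?_⟩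
    · simp only [LinearMap.add_apply, map_add, h.1, h'.1]
    · simp only [LinearMap.add_apply, map_add, h.2, h'.2, smul_add]
  zero_mem' := by
    refine ⟨fun w f => ?_, fun s f => ?_⟩ <;> simp only [_root_.LinearMap.zero_apply, _root_.map_zero, _root_.smul_zero]
  smul_mem' a φ h := by
    refine ⟨fun w f => ?_, fun s f => ?_⟩
    · simp only [LinearMap.smul_apply, map_smul, h.1]
    · simp only [LinearMap.smul_apply, map_smul, h.2, smul_comm a]

variable {ρ : Representation ℂ (Sp (m + 1) F) V}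

/-- `emb g` commutes with the centre. -/
theorem emb_comm_ctr (g : Sp m F) (s : F) : emb g * uu (sR 0 s) = uu (sR 0 s) * emb g := by
  have h := emb_qq g 0 s
  have h0 : ∀ s : F, qq (0 : Fin m → F) 0 s = uu (sR 0 s) := by
    intro s
    rw [qq, hb_zero, map_one, mul_one]
    simp only [_root_.dotProduct_zero, _root_.sub_zero]
  rw [mulVec_zero] at h
  have h1 : (0 : Fin m ⊕ Fin m → F) ∘ Sum.inl = 0 := rfl
  have h2 : (0 : Fin m ⊕ Fin m → F) ∘ Sum.inr = 0 := rfl
  rwa [h1, h2, h0] at h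

theorem tau_mem {ω : Representation ℂ (Sp m F) (W m F)} (hω : IsWeil ψ c ω) (j : Fin m)
    (g : Sp m F) {φ : W m F →ₗ[ℂ] V} (hφ : φ ∈ MM ρ ψ c) :
    (ρ (emb g)) ∘ₗ φ ∘ₗ (ω g⁻¹) ∈ MM ρ ψ c := by
  refine ⟨fun w f => ?_, fun s f => ?_⟩
  · simp only [LinearMap.comp_apply]
    rw [weil_isInt hω j, hφ.1, ← rho_mul, emb_qq, rho_mul, mulVec_mulVec]
    have : (g : Matrix (Fin m ⊕ Fin m) (Fin m ⊕ Fin m) F) *
        ((g⁻¹ : Sp m F) : Matrix (Fin m ⊕ Fin m) (Fin m ⊕ Fin m) F) = 1 := by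
      rw [← Submonoid.coe_mul, mul_inv_cancel]; rfl
    rw [this, one_mulVec]
  · simp only [LinearMap.comp_apply]
    rw [← rho_mul, ← emb_comm_ctr, rho_mul, hφ.2, map_smul]

/-- **The Fourier–Jacobi representation** of `Sp_2m`. -/
noncomputable def tau {ω : Representation ℂ (Sp m F) (W m F)} (hω : IsWeil ψ c ω) (j : Fin m)
    (ρ : Representation ℂ (Sp (m + 1) F) V) : Representation ℂ (Sp m F) (MM ρ ψ c) where
  toFun g :=
    { toFun := fun φ => ⟨(ρ (emb g)) ∘ₗ φ.1 ∘ₗ (ω g⁻¹), tau_mem hω j g φ.2⟩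
      map_add' := fun φ φ' => by
        apply Subtype.ext
        ext f
        simp only [_root_.Submodule.coe_add, _root_.LinearMap.coe_comp, _root_.Function.comp_apply, _root_.LinearMap.add_apply, _root_.map_add, _root_.AddMemClass.mk_add_mk]
      map_smul' := fun a φ => by
        apply Subtype.ext
        ext f
        simp only [_root_.SetLike.val_smul, _root_.LinearMap.coe_comp, _root_.LinearMap.coe_smul, _root_.Function.comp_apply, _root_.Pi.smul_apply, _root_.map_smul, _root_.RingHom.id_apply, _root_.SetLike.mk_smul_mk, _root_.LinearMap.smul_apply] }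
  map_one' := by
    ext φ f
    simp only [_root_.map_one, _root_.inv_one, _root_.LinearMap.coe_mk, _root_.AddHom.coe_mk, _root_.LinearMap.coe_comp, _root_.Function.comp_apply, _root_.Module.End.one_apply]
  map_mul' g h := by
    ext φ f
    simp only [_root_.mul_inv_rev, _root_.map_mul, _root_.LinearMap.coe_mk, _root_.AddHom.coe_mk, _root_.LinearMap.coe_comp, _root_.Function.comp_apply, _root_.Module.End.mul_apply]

theorem tau_apply {ω : Representation ℂ (Sp m F) (W m F)} (hω : IsWeil ψ c ω) (j : Fin m)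
    (g : Sp m F) (φ : MM ρ ψ c) (f : W m F) :
    (tau hω j ρ g φ).1 f = ρ (emb g) (φ.1 (ω g⁻¹ f)) := rfl

theorem emb_apply {ω : Representation ℂ (Sp m F) (W m F)} (hω : IsWeil ψ c ω) (j : Fin m)
    (g : Sp m F) (φ : MM ρ ψ c) (f : W m F) :
    ρ (emb g) (φ.1 f) = (tau hω j ρ g φ).1 (ω g f) := by
  rw [tau_apply, ← rho_mul, inv_mul_cancel, map_one, Module.End.one_apply]

/-! ### Evaluation at `dl 0` -/

/-- vectors on which the Siegel part of the Heisenberg group acts by the central character `c` -/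
def UU (ρ : Representation ℂ (Sp (m + 1) F) V) (ψ : AddChar F ℂ) (c : F) : Submodule ℂ V where
  carrier := {v | ∀ (a : Fin m → F) (s : F), ρ (uu (sR a s)) v = ψ (c * s) • v}
  add_mem' {v v'} h h' := by
    intro a s
    rw [map_add, h, h', smul_add]
  zero_mem' := by intro a s; simp only [_root_.map_zero, _root_.smul_zero]
  smul_mem' d v h := by
    intro a s
    rw [map_smul, h, smul_comm]

theorem Mop_dl (a b x : Fin m → F) : Mop ψ c (Sum.elim a b) (dl x : W m F) =
    ψ (-c * (2 * (a ⬝ᵥ (x - b)) + a ⬝ᵥ b)) • dl (x - b) := by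
  ext z
  rw [Mop_apply, Pi.smul_apply, smul_eq_mul]
  by_cases h : z = x - b
  · subst h
    rw [sub_add_cancel, dl_self, dl_self]
  · rw [dl_ne h, dl_ne (fun e => h (by rw [← e]; abel)), mul_zero, mul_zero]

theorem qq_zero_right (a : Fin m → F) (s : F) : qq a 0 s = uu (sR a s) := by
  rw [qq, hb_zero, map_one, mul_one]
  simp only [_root_.dotProduct_zero, _root_.sub_zero]

theorem qq_zero_left (b : Fin m → F) : qq 0 b 0 = mm (hb b) := by
  rw [qq]
  have : (sR (0 : Fin m → F) (0 - 0 ⬝ᵥ b)) = 0 := by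
    apply Subtype.ext
    refine up_ext ?_ ?_ ?_ ?_ <;> intros <;> simp only [_root_.zero_dotProduct, _root_.sub_self, _root_.Cfsg.Agent.H495.TI.sR_00, _root_.ZeroMemClass.coe_zero, _root_.Matrix.zero_apply, _root_.Cfsg.Agent.H495.TI.sR_0s, _root_.Pi.zero_apply, _root_.Cfsg.Agent.H495.TI.sR_s0, _root_.Cfsg.Agent.H495.TI.sR_ss]
  rw [this, uu_zero, one_mul]

theorem MM_apply_elim {φ : W m F →ₗ[ℂ] V} (hφ : φ ∈ MM ρ ψ c) (a b : Fin m → F) (f : W m F) :
    φ (Mop ψ c (Sum.elim a b) f) = ρ (qq a b 0) (φ f) := by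
  have := hφ.1 (Sum.elim a b) f
  rwa [Sum.elim_comp_inl, Sum.elim_comp_inr] at this

theorem sR_split (a : Fin m → F) (s : F) : sR a s = sR 0 s + sR a 0 := by
  rw [sR_add, zero_add, add_zero]

theorem MM_dl {φ : W m F →ₗ[ℂ] V} (hφ : φ ∈ MM ρ ψ c) (x : Fin m → F) :
    φ (dl x) = ρ (mm (hb (-x))) (φ (dl 0)) := by
  rw [← qq_zero_left, ← MM_apply_elim hφ, Mop_dl]
  simp only [_root_.sub_neg_eq_add, _root_.zero_add, _root_.zero_dotProduct, _root_.MulZeroClass.mul_zero, _root_.dotProduct_neg, _root_.neg_zero, _root_.add_zero, _root_.AddChar.map_zero_eq_one, _root_.one_smul]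

theorem MM_dl_zero {φ : W m F →ₗ[ℂ] V} (hφ : φ ∈ MM ρ ψ c) : φ (dl 0) ∈ UU ρ ψ c := by
  intro a s
  rw [sR_split, uu_add, rho_mul]
  have h1 : ρ (uu (sR a 0)) (φ (dl 0)) = φ (dl 0) := by
    rw [← qq_zero_right, ← MM_apply_elim hφ, Mop_dl]
    simp only [_root_.sub_self, _root_.dotProduct_zero, _root_.MulZeroClass.mul_zero, _root_.add_zero, _root_.AddChar.map_zero_eq_one, _root_.one_smul]
  rw [h1, hφ.2]

theorem MM_ext {φ φ' : W m F →ₗ[ℂ] V} (hφ : φ ∈ MM ρ ψ c) (hφ' : φ' ∈ MM ρ ψ c)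
    (h : φ (dl 0) = φ' (dl 0)) : φ = φ' := by
  ext f
  rw [f_eq_sum f, map_sum, map_sum]
  refine Finset.sum_congr rfl fun x _ => ?_
  rw [map_smul, map_smul, MM_dl hφ, MM_dl hφ', h]

theorem hb_uu (y a : Fin m → F) (s : F) :
    uu (sR a s) * mm (hb y) = mm (hb y) * uu (sR a (s + 2 * (a ⬝ᵥ y))) := by
  rw [uu_mul_mm]
  congr 2
  apply Subtype.ext
  simp only [cong]
  rw [hb_inv_coe, transpose_add, transpose_one, transpose_vecMulVec, Matrix.add_mul,
    Matrix.one_mul, Matrix.mul_add, Matrix.mul_one, Matrix.add_mul, mul_vecMulVec, vecMulVec_mul,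
    vecMulVec_mul_vecMulVec]
  have h1 : (sR a s).1 *ᵥ inc y = (a ⬝ᵥ y) • e0 m F := by
    rw [sR_coe, add_mulVec, add_mulVec, smul_mulVec, vecMulVec_mulVec, vecMulVec_mulVec,
      vecMulVec_mulVec, dotProduct_comm (e0 m F), inc_dot_e0, inc_dot_inc]
    simp only [_root_.MulOpposite.op_zero, _root_.zero_smul, _root_.IsCentralScalar.op_smul_eq_smul, _root_.zero_add, _root_.smul_zero, _root_.add_zero]
  have h2 : inc y ᵥ* (sR a s).1 = (a ⬝ᵥ y) • e0 m F := by
    have := (sR a s).2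
    rw [mem_Sym] at this
    rw [← mulVec_transpose, this, h1]
  rw [h1, h2, sR_coe, sR_coe, smul_dotProduct, dotProduct_comm (e0 m F), inc_dot_e0]
  ext i j
  simp only [vecMulVec_apply, _root_.Matrix.vecMulVec_smul, _root_.Matrix.smul_vecMulVec, _root_.smul_eq_mul, _root_.MulZeroClass.mul_zero, _root_.zero_smul, _root_.Matrix.vecMulVec_zero, _root_.add_zero, _root_.Matrix.add_apply, _root_.Matrix.smul_apply]
  ring

/-- the linear map attached to a vector -/
noncomputable def lf (ρ : Representation ℂ (Sp (m + 1) F) V) (v : V) : W m F →ₗ[ℂ] V where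
  toFun f := ∑ x, f x • ρ (mm (hb (-x))) v
  map_add' f g := by simp only [add_smul, Finset.sum_add_distrib, _root_.Pi.add_apply]
  map_smul' a f := by simp only [mul_smul, Finset.smul_sum, _root_.Pi.smul_apply, _root_.smul_eq_mul, _root_.RingHom.id_apply]

theorem lf_apply (v : V) (f : W m F) : lf ρ v f = ∑ x, f x • ρ (mm (hb (-x))) v := rfl

theorem lf_dl (v : V) (x : Fin m → F) : lf ρ v (dl x) = ρ (mm (hb (-x))) v := by
  classical
  rw [lf_apply, Finset.sum_eq_single x]
  · rw [dl_self, one_smul]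
  · intro y _ hy
    rw [dl_ne hy, zero_smul]
  · simp only [_root_.Finset.mem_univ, _root_.not_true_eq_false, _root_.smul_eq_zero, _root_.IsEmpty.forall_iff]

theorem lf_dl_zero (v : V) : lf ρ v (dl 0) = v := by
  rw [lf_dl, neg_zero, hb_zero, map_one, map_one, Module.End.one_apply]

theorem lf_mem {v : V} (hv : v ∈ UU ρ ψ c) : lf ρ v ∈ MM ρ ψ c := by
  have hbasis : ∀ {A B : W m F →ₗ[ℂ] V}, (∀ x, A (dl x) = B (dl x)) → A = B := by
    intro A B h
    ext f
    rw [f_eq_sum f, map_sum, map_sum]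
    refine Finset.sum_congr rfl fun x _ => ?_
    rw [map_smul, map_smul, h]
  constructor
  · intro w f
    have h : (lf ρ v) ∘ₗ (Mop ψ c w) = (ρ (qq (w ∘ Sum.inl) (w ∘ Sum.inr) 0)) ∘ₗ (lf ρ v) := by
      apply hbasis
      intro x
      obtain ⟨a, b, rfl⟩ : ∃ a b, w = Sum.elim a b := ⟨_, _, (Sum.elim_comp_inl_inr w).symm⟩
      rw [LinearMap.comp_apply, LinearMap.comp_apply, Mop_dl, map_smul, lf_dl, lf_dl,
        Sum.elim_comp_inl, Sum.elim_comp_inr, qq, ← rho_mul, mul_assoc, ← map_mul, ← hb_add,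
        hb_uu, rho_mul, hv, map_smul, neg_sub, sub_eq_add_neg b x]
      congr 2
      simp only [dotProduct_add, dotProduct_sub, dotProduct_neg]
      ring
    exact LinearMap.congr_fun h f
  · intro s f
    have h : (ρ (uu (sR 0 s))) ∘ₗ (lf ρ v) = ψ (c * s) • (lf ρ v) := by
      apply hbasis
      intro x
      rw [LinearMap.comp_apply, LinearMap.smul_apply, lf_dl, ← rho_mul, hb_uu, rho_mul, hv,
        map_smul]
      simp only [_root_.dotProduct_neg, _root_.zero_dotProduct, _root_.neg_zero, _root_.MulZeroClass.mul_zero, _root_.add_zero]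
    exact LinearMap.congr_fun h f

/-! ### Weights -/

theorem pr_up (T' : Matrix (Fin m) (Fin m) F) (a : Fin m → F) (s : F) (S' : Sym m F) :
    pr (up c T') (sR a s + upS S').1 = c * s + pr T' S'.1 := by
  simp only [pr, Fin.sum_univ_succ, upS_coe, _root_.AddSubgroup.coe_add, _root_.Matrix.add_apply, _root_.Cfsg.Agent.H495.TI.up_00, _root_.Cfsg.Agent.H495.TI.sR_00, _root_.add_zero, _root_.Cfsg.Agent.H495.TI.up_0s, _root_.Cfsg.Agent.H495.TI.sR_0s, _root_.MulZeroClass.zero_mul, _root_.Finset.sum_const_zero, _root_.Cfsg.Agent.H495.TI.up_s0, _root_.Cfsg.Agent.H495.TI.sR_s0, _root_.Cfsg.Agent.H495.TI.up_ss, _root_.Cfsg.Agent.H495.TI.sR_ss, _root_.zero_add]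

theorem up_mem {T' : Matrix (Fin m) (Fin m) F} (hT : T' ∈ _root_.Cfsg.Agent.H162.Weil.Sym m F) :
    up c T' ∈ _root_.Cfsg.Agent.H162.Weil.Sym (m + 1) F := by
  rw [mem_Sym] at hT ⊢
  rw [up_transpose, hT]

theorem DS_dl_zero (S : Sym m F) : DS ψ c S (dl 0 : W m F) = dl 0 := by
  ext x
  rw [DS_apply]
  by_cases h : x = 0
  · subst h
    simp only [_root_.Matrix.mulVec_zero, _root_.dotProduct_zero, _root_.MulZeroClass.mul_zero, _root_.AddChar.map_zero_eq_one, _root_.one_mul]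
  · rw [dl_ne h, mul_zero]

/-- **Weights of `tau`.** -/
theorem mem_Wt_tau {ω : Representation ℂ (Sp m F) (W m F)} (hω : IsWeil ψ c ω) (j : Fin m)
    {φ : MM ρ ψ c} {T' : Matrix (Fin m) (Fin m) F} :
    φ ∈ Wt (tau hω j ρ) ψ T' ↔ φ.1 (dl 0) ∈ Wt ρ ψ (up c T') := by
  have key : ∀ S' : Sym m F, (tau hω j ρ (uu S') φ).1 (dl 0) = ρ (uu (upS S')) (φ.1 (dl 0)) := by
    intro S'
    have h := emb_apply hω j (uu S') φ (dl 0)
    rw [hω.w1, DS_dl_zero, emb_uu] at h
    exact h.symm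
  constructor
  · intro h S
    obtain ⟨a, s, S', rfl⟩ := sym_decomp S
    rw [pr_up, uu_add, rho_mul, ← key, h S']
    show ρ (uu (sR a s)) (ψ (pr T' S'.1) • φ.1 (dl 0)) = _
    rw [map_smul, MM_dl_zero φ.2, smul_smul, AddChar.map_add_eq_mul, mul_comm]
  · intro h S'
    apply Subtype.ext
    apply MM_ext (tau hω j ρ (uu S') φ).2 (ψ (pr T' S'.1) • φ).2
    rw [key]
    have h1 := h (sR 0 0 + upS S')
    rw [pr_up] at h1
    have h0 : (sR (0 : Fin m → F) 0) = 0 := by
      apply Subtype.ext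
      refine up_ext ?_ ?_ ?_ ?_ <;> intros <;> simp only [_root_.Cfsg.Agent.H495.TI.sR_00, _root_.ZeroMemClass.coe_zero, _root_.Matrix.zero_apply, _root_.Cfsg.Agent.H495.TI.sR_0s, _root_.Pi.zero_apply, _root_.Cfsg.Agent.H495.TI.sR_s0, _root_.Cfsg.Agent.H495.TI.sR_ss]
    rw [h0, zero_add, mul_zero, zero_add] at h1
    exact h1

theorem ev_ne_zero {φ : MM ρ ψ c} (h : φ ≠ 0) : φ.1 (dl 0) ≠ 0 := by
  intro h0
  apply h
  apply Subtype.ext
  apply MM_ext φ.2 (0 : MM ρ ψ c).2
  rw [h0]; rfl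

/-- If all weights of `V` have rank at most two, those of `tau` have rank at most one. -/
theorem tau_rkOne {ω : Representation ℂ (Sp m F) (W m F)} (hω : IsWeil ψ c ω) (j : Fin m)
    (hR : ∀ T ∈ _root_.Cfsg.Agent.H162.Weil.Sym (m + 1) F, ∀ v ∈ Wt ρ ψ T, v ≠ 0 → ∀ r s : Fin 3 → Fin (m + 1),
      (T.submatrix r s).det = 0) : RkOne (tau hω j ρ) ψ := by
  intro T' hT' φ hφ hne i k l n
  have h := hR (up c T') (up_mem hT') _ ((mem_Wt_tau hω j).mp hφ) (ev_ne_zero hne)
    ![0, i.succ, l.succ] ![0, k.succ, n.succ]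
  rw [det_fin_three] at h
  simp only [submatrix_apply, cons_val_zero, cons_val_one, cons_val_two, head_cons, tail_cons,
    up_00, up_0s, up_s0, up_ss] at h
  have h2 : c * (T' i k * T' l n - T' i n * T' l k) = 0 := by
    linear_combination h
  rcases mul_eq_zero.mp h2 with h3 | h3
  · exact absurd h3 hω.lam0
  · exact sub_eq_zero.mp h3

/-! ### The subspace of `V` attached to a submodule of `MM` -/

/-- `{φ f}` spanned -/
def LL (K : Submodule ℂ (MM ρ ψ c)) : Submodule ℂ V :=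
  Submodule.span ℂ {v | ∃ φ ∈ K, ∃ f : W m F, v = φ.1 f}

theorem mem_LL {K : Submodule ℂ (MM ρ ψ c)} {φ : MM ρ ψ c} (hφ : φ ∈ K) (f : W m F) :
    φ.1 f ∈ LL K := Submodule.subset_span ⟨φ, hφ, f, rfl⟩

theorem LL_emb {ω : Representation ℂ (Sp m F) (W m F)} (hω : IsWeil ψ c ω) (j : Fin m)
    {K : Submodule ℂ (MM ρ ψ c)} (hK : ∀ g, ∀ φ ∈ K, tau hω j ρ g φ ∈ K) (g : Sp m F) {v : V}
    (hv : v ∈ LL K) : ρ (emb g) v ∈ LL K := by
  have h : LL K ≤ (LL K).comap (ρ (emb g)) := by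
    rw [LL, Submodule.span_le]
    rintro _ ⟨φ, hφ, f, rfl⟩
    show ρ (emb g) (φ.1 f) ∈ LL K
    rw [emb_apply hω j]
    exact mem_LL (hK g φ hφ) _
  exact h hv

theorem LL_qq {K : Submodule ℂ (MM ρ ψ c)} (a b : Fin m → F) (s : F) {v : V}
    (hv : v ∈ LL K) : ρ (qq a b s) v ∈ LL K := by
  have h : LL K ≤ (LL K).comap (ρ (qq a b s)) := by
    rw [LL, Submodule.span_le]
    rintro _ ⟨φ, hφ, f, rfl⟩
    show ρ (qq a b s) (φ.1 f) ∈ LL K
    have h1 : qq a b s = uu (sR 0 s) * qq a b 0 := by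
      rw [qq, qq, ← mul_assoc, ← uu_add, sR_add]
      congr 3
      · simp
      · ring
    rw [h1, rho_mul, ← MM_apply_elim φ.2, φ.2.2]
    exact Submodule.smul_mem _ _ (mem_LL hφ _)
  exact h hv

theorem LL_hb {K : Submodule ℂ (MM ρ ψ c)} (b : Fin m → F) {v : V}
    (hv : v ∈ LL K) : ρ (mm (hb b)) v ∈ LL K := by
  rw [← qq_zero_left]
  exact LL_qq _ _ _ hv

theorem LL_sR {K : Submodule ℂ (MM ρ ψ c)} (a : Fin m → F) (s : F) {v : V}
    (hv : v ∈ LL K) : ρ (uu (sR a s)) v ∈ LL K := by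
  rw [← qq_zero_right]
  exact LL_qq _ _ _ hv

theorem LL_uu {ω : Representation ℂ (Sp m F) (W m F)} (hω : IsWeil ψ c ω) (j : Fin m)
    {K : Submodule ℂ (MM ρ ψ c)} (hK : ∀ g, ∀ φ ∈ K, tau hω j ρ g φ ∈ K) (S : Sym (m + 1) F) {v : V}
    (hv : v ∈ LL K) : ρ (uu S) v ∈ LL K := by
  obtain ⟨a, s, S', rfl⟩ := sym_decomp S
  rw [uu_add, rho_mul]
  apply LL_sR
  rw [← emb_uu]
  exact LL_emb hω j hK _ hv

/-- `dim LL K ≤ q^m dim K`. -/
theorem finrank_LL_le [FiniteDimensional ℂ V] (K : Submodule ℂ (MM ρ ψ c)) :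
    finrank ℂ (LL K) ≤ Fintype.card F ^ m * finrank ℂ K := by
  classical
  haveI : Module.Finite ℂ (MM ρ ψ c) := inferInstance
  haveI : Module.Free ℂ K := Module.Free.of_divisionRing ℂ K
  let b := Module.finBasis ℂ K
  have h : LL K ≤ Submodule.span ℂ
      (Set.range fun p : (Fin m → F) × Fin (finrank ℂ K) => (b p.2).1.1 (dl p.1)) := by
    rw [LL, Submodule.span_le]
    rintro _ ⟨φ, hφ, f, rfl⟩
    have h1 : φ = ∑ k, (b.repr ⟨φ, hφ⟩ k) • (b k).1 := by
      have := congrArg Subtype.val (b.sum_repr ⟨φ, hφ⟩)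
      rw [Submodule.coe_sum] at this
      exact this.symm
    have h2 : φ.1 f = ∑ k, (b.repr ⟨φ, hφ⟩ k) • (b k).1.1 f := by
      conv_lhs => rw [h1]
      simp only [_root_.AddSubmonoidClass.coe_finsetSum, _root_.SetLike.val_smul, _root_.LinearMap.coe_sum, _root_.LinearMap.coe_smul, _root_.Finset.sum_apply, _root_.Pi.smul_apply]
    rw [h2]
    refine Submodule.sum_mem _ fun k _ => Submodule.smul_mem _ _ ?_
    rw [f_eq_sum f, map_sum]
    refine Submodule.sum_mem _ fun x _ => ?_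
    rw [map_smul]
    exact Submodule.smul_mem _ _ (Submodule.subset_span ⟨(x, k), rfl⟩)
  refine (Submodule.finrank_mono h).trans ((finrank_range_le_card _).trans ?_)
  rw [Fintype.card_prod, Fintype.card_fin, Fintype.card_fun, Fintype.card_fin]

end Cfsg.Agent.H495.TI

private theorem dce_8675aea78faa : _root_.True := by
  try have : _root_.True := by simp only [_root_.Cfsg.Agent.H495.TI.LL.eq_1]
  exact _root_.True.intro
end
end
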